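import Mathlib
import Cfsg.Agent.Lib.A6C.Defs

/-! An involution centraliser with a component of dihedral type modulo its core: the frames. -/

set_option autoImplicit false

namespace H60M.MC

open Subgroup H69 H36.SW H80.A6C

variable {X : Type*} [Group X] {Q : Type*} [Group Q] {G : Type*} [Group G]

/-- a group with Sylow 2-subgroup `⟨v1, v2⟩ ≅ D₈`, and two facts on its automorphisms -/
structure Md (z v1 v2 y1 y2 : X) : Prop where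
  v11 : v1 * v1 = 1
  v22 : v2 * v2 = 1
  zz : z * z = 1
  z1 : z ≠ 1
  hz : v1 * v2 * v1 * v2 = z
  syl : IsSylowIn 2 (closure ({v1, v2} : Set X)) ⊤
  y13 : y1 ^ 3 = 1
  y23 : y2 ^ 3 = 1
  y1z : y1 * z * y1⁻¹ = v1
  y2z : y2 * z * y2⁻¹ = v2
  y1v : y1 * v1 * y1⁻¹ = z * v1
  y2v : y2 * v2 * y2⁻¹ = z * v2
  v2y : v2 * y1 * v2 = y1⁻¹
  v1y : v1 * y2 * v1 = y2⁻¹
  m1 : ∀ φ : MulAut X, φ v1 = v1 → φ v2 = v2 →
    (φ y1 = y1 ∨ φ y1 = z * y1 * z) ∧ (φ y2 = y2 ∨ φ y2 = z * y2 * z)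
  m2 : ∀ φ : MulAut X, φ * φ = 1 → φ v1 = v1 → φ v2 = v2 → ∀ a b, φ a = a → φ b = b →
    a * z * a⁻¹ = v1 → b * z * b⁻¹ = v2 → φ = 1

/-- the same for a normal subgroup `L` of `Q` -/
structure Mq (L : Subgroup Q) (z v1 v2 y1 y2 : Q) : Prop where
  v1L : v1 ∈ L
  v2L : v2 ∈ L
  y1L : y1 ∈ L
  y2L : y2 ∈ L
  v11 : v1 * v1 = 1
  v22 : v2 * v2 = 1
  zz : z * z = 1
  z1 : z ≠ 1
  hz : v1 * v2 * v1 * v2 = z
  syl : IsSylowIn 2 (closure ({v1, v2} : Set Q)) L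
  y13 : y1 ^ 3 = 1
  y23 : y2 ^ 3 = 1
  y1z : y1 * z * y1⁻¹ = v1
  y2z : y2 * z * y2⁻¹ = v2
  y1v : y1 * v1 * y1⁻¹ = z * v1
  y2v : y2 * v2 * y2⁻¹ = z * v2
  v2y : v2 * y1 * v2 = y1⁻¹
  v1y : v1 * y2 * v1 = y2⁻¹
  m1 : ∀ x, x * v1 = v1 * x → x * v2 = v2 * x →
    (x * y1 = y1 * x ∨ z * x * y1 = y1 * (z * x)) ∧ (x * y2 = y2 * x ∨ z * x * y2 = y2 * (z * x))
  m2 : ∀ x, x * x ∈ 𝐂(L) → x * v1 = v1 * x → x * v2 = v2 * x → ∀ a ∈ L, ∀ b ∈ L, x * a = a * x →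
    x * b = b * x → a * z * a⁻¹ = v1 → b * z * b⁻¹ = v2 → x ∈ 𝐂(L)

/-- `π` is a homomorphism on `C(t)` with kernel of odd order whose image contains `L` -/
structure Hy (t : G) (π : G → Q) (L : Subgroup Q) : Prop where
  tt : t * t = 1
  t1 : t ≠ 1
  mul : ∀ a b, a * t = t * a → b * t = t * b → π (a * b) = π a * π b
  odd : ∀ a, a * t = t * a → π a = 1 → Odd (orderOf a)
  nL : L.Normal
  cL : ∀ q ∈ 𝐂(L), q = 1 ∨ q = π t
  tL : π t ∉ L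
  tC : π t ∈ 𝐂(L)
  sur : ∀ l ∈ L, ∃ a, a * t = t * a ∧ π a = l

namespace Hy
variable {t : G} {π : G → Q} {L : Subgroup Q}

theorem one (h : Hy t π L) : π 1 = 1 := by
  have := h.mul 1 1 (by simp) (by simp)
  rw [mul_one] at this
  exact left_eq_mul.1 this

theorem cinv {a : G} (c : a * t = t * a) : a⁻¹ * t = t * a⁻¹ := (show Commute a t from c).inv_left

theorem cmul {a b : G} (c : a * t = t * a) (d : b * t = t * b) : a * b * t = t * (a * b) :=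
  (show Commute a t from c).mul_left d

theorem inv (h : Hy t π L) {a : G} (c : a * t = t * a) : π a⁻¹ = (π a)⁻¹ :=
  eq_inv_of_mul_eq_one_left (by rw [← h.mul _ _ (cinv c) c, inv_mul_cancel, h.one])

theorem cj (h : Hy t π L) {g a : G} (c : g * t = t * g) (d : a * t = t * a) :
    π (g * a * g⁻¹) = π g * π a * (π g)⁻¹ := by
  rw [h.mul _ _ (cmul c d) (cinv c), h.mul _ _ c d, h.inv c]

/-- `π` as a homomorphism -/
def ρ (h : Hy t π L) : centralizer ({t} : Set G) →* Q :=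
  MonoidHom.mk' (fun a => π a) fun a b =>
    h.mul _ _ (mem_centralizer_singleton_iff.1 a.2) (mem_centralizer_singleton_iff.1 b.2)

/-- the preimage of a subgroup -/
def pre (h : Hy t π L) (K : Subgroup Q) : Subgroup G where
  carrier := {a | a * t = t * a ∧ π a ∈ K}
  one_mem' := ⟨by simp, h.one ▸ one_mem K⟩
  mul_mem' := fun a b => ⟨cmul a.1 b.1, h.mul _ _ a.1 b.1 ▸ mul_mem a.2 b.2⟩
  inv_mem' := fun a => ⟨cinv a.1, h.inv a.1 ▸ inv_mem a.2⟩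

theorem mem_pre (h : Hy t π L) {K : Subgroup Q} {a : G} : a ∈ h.pre K ↔ a * t = t * a ∧ π a ∈ K := Iff.rfl

theorem ρ_ap (h : Hy t π L) (a : centralizer ({t} : Set G)) : h.ρ a = π a := rfl

end Hy

/-- a Sylow 2-subgroup `T` of `C(t)` over `⟨v1, v2⟩` -/
structure Pre (t : G) (π : G → Q) (L : Subgroup Q) (z v1 v2 : Q) (T : Subgroup G) (z' v1' v2' : G) : Prop where
  syl : IsSylowIn 2 T (centralizer {t})
  zT : z' ∈ T
  v1T : v1' ∈ T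
  v2T : v2' ∈ T
  pz : π z' = z
  p1 : π v1' = v1
  p2 : π v2' = v2
  TA : ∀ x ∈ T, π x ∈ L ↔ x ∈ closure ({v1', v2'} : Set G)

/-- the local frame over the model -/
structure Lq (F : Lf G) (π : G → Q) (L : Subgroup Q) (z v1 v2 y1 y2 : Q) : Prop where
  r2 : F.R2
  pz : π F.z = z
  p1 : π F.v1 = v1
  p2 : π F.v2 = v2
  TA : ∀ x ∈ F.T, π x ∈ L ↔ x ∈ F.D
  y1f : π F.f * y1 = y1 * π F.f
  y2f : F.f ≠ 1 → z * π F.f * y2 = y2 * (z * π F.f)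

/-- the local frame with the two elements of odd order -/
structure Mc (F : Lf G) (A : Subgroup G) (y1 y2 : G) : Prop where
  r2 : F.R2
  AH : ∀ a ∈ A, a * F.t = F.t * a
  HN : ∀ g, g * F.t = F.t * g → g ∈ 𝐍(A)
  TA : ∀ x ∈ F.T, x ∈ A ↔ x ∈ F.D
  y1A : y1 ∈ A
  y2A : y2 ∈ A
  y1o : Odd (orderOf y1)
  y2o : Odd (orderOf y2)
  y1z : y1 * F.z * y1⁻¹ = F.v1
  y2z : y2 * F.z * y2⁻¹ = F.v2
  y1v : y1 * F.v1 * y1⁻¹ = F.z * F.v1
  y2v : y2 * F.v2 * y2⁻¹ = F.z * F.v2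
  v2y : F.v2 * y1 * F.v2 = y1⁻¹
  v1y : F.v1 * y2 * F.v1 = y2⁻¹
  y1f : y1 * F.f = F.f * y1
  y2f : F.f ≠ 1 → y2 * (F.z * F.f) = F.z * F.f * y2

/-- `G = E⟨t⟩` with `E` simple -/
structure Gt (E : Subgroup G) (t : G) : Prop where
  En : E.Normal
  Es : IsSimpleGroup E
  top : ∀ g, g ∈ E ∨ g * t ∈ E
  cE : ∀ g ∈ 𝐂(E), g = 1
  zs : ∃ g, g * t * g⁻¹ ≠ t ∧ g * t * g⁻¹ * t = t * (g * t * g⁻¹)

/-- `PSL₂(F)` -/
abbrev P2F (F : Type) [Field F] := Matrix.ProjectiveSpecialLinearGroup (Fin 2) F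

end H60M.MC
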