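import Mathlib
import Cfsg.Agent.Lib.M37.Defs

/-! Transport of the model. -/

set_option autoImplicit false

namespace H60M.MC

open Subgroup H69 H36.SW H80.A6C

variable {X : Type*} [Group X] {Q : Type*} [Group Q] [Finite Q] {L : Subgroup Q}

theorem exists_aut (nL : L.Normal) (e : X ≃* L) : ∃ θ : Q →* MulAut X,
    (∀ x a, (e (θ x a) : Q) = x * e a * x⁻¹) ∧ ∀ x, θ x = 1 ↔ x ∈ 𝐂(L) := by
  refine ⟨(MulAut.congr e).symm.toMonoidHom.comp (MulAut.conjNormal (H := L)), fun x a => ?_, fun x => ?_⟩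
  · simp [MulAut.congr]
  · have hθ : ∀ a, (e ((MulAut.congr e).symm.toMonoidHom.comp (MulAut.conjNormal (H := L)) x a) : Q) =
        x * e a * x⁻¹ := fun a => by simp [MulAut.congr]
    constructor
    · intro h
      rw [mem_centralizer_iff]
      intro l hl
      have := hθ (e.symm ⟨l, hl⟩)
      rw [h] at this
      simp only [MulAut.one_apply, MulEquiv.apply_symm_apply] at this
      calc l * x = x * l * x⁻¹ * x := by rw [← this]
        _ = x * l := by group
    · intro h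
      ext a
      apply e.injective
      apply Subtype.ext
      rw [hθ, MulAut.one_apply, ← mem_centralizer_iff.1 h _ (e a).2]
      group

theorem Tr_fix {e : X ≃* L} {θ : Q →* MulAut X} (hθ : ∀ x a, (e (θ x a) : Q) = x * e a * x⁻¹) (x : Q) (a : X) :
    θ x a = a ↔ x * e a = e a * x := by
  constructor
  · intro h
    have := hθ x a
    rw [h] at this
    calc x * e a = x * e a * x⁻¹ * x := by group
      _ = _ := by rw [← this]
  · intro h
    apply e.injective
    apply Subtype.ext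
    rw [hθ, h]
    group

theorem Tr_fixz {e : X ≃* L} {θ : Q →* MulAut X} (hθ : ∀ x a, (e (θ x a) : Q) = x * e a * x⁻¹) {x : Q} {a z : X}
    (zz : z * z = 1) (h : θ x a = z * a * z) : (e z : Q) * x * e a = e a * (e z * x) := by
  have h1 := hθ x a
  rw [h] at h1
  simp only [map_mul, coe_mul] at h1
  have h2 : (e z : Q) * e z = 1 := by rw [← coe_mul, ← map_mul, zz]; simp
  calc (e z : Q) * x * e a = e z * (x * e a * x⁻¹) * x := by group
    _ = (e z * e z) * e a * (e z * x) := by rw [← h1]; group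
    _ = _ := by rw [h2, one_mul]

theorem Md.mq {z v1 v2 y1 y2 : X} (m : Md z v1 v2 y1 y2) (nL : L.Normal) (e : X ≃* L) :
    Mq L (e z) (e v1) (e v2) (e y1) (e y2) := by
  obtain ⟨θ, hθ, hk⟩ := exists_aut nL e
  let f : X →* Q := L.subtype.comp e.toMonoidHom
  have hf : ∀ a, f a = (e a : Q) := fun _ => rfl
  have fi : Function.Injective f := Subtype.val_injective.comp e.injective
  have T : ∀ {a b : X}, a = b → f a = f b := fun h => congrArg f h
  refine ⟨(e v1).2, (e v2).2, (e y1).2, (e y2).2, ?_, ?_, ?_, ?_, ?_, ?_, ?_, ?_, ?_, ?_, ?_, ?_, ?_, ?_, ?_, ?_⟩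
  · simpa only [← hf, map_mul, map_one] using T m.v11
  · simpa only [← hf, map_mul, map_one] using T m.v22
  · simpa only [← hf, map_mul, map_one] using T m.zz
  · intro h
    exact m.z1 (fi (by rw [hf, h, map_one]))
  · simpa only [← hf, map_mul] using T m.hz
  · have hc : closure ({(e v1 : Q), (e v2 : Q)} : Set Q) = (closure ({v1, v2} : Set X)).map f := by
      rw [MonoidHom.map_closure, Set.image_pair, hf, hf]
    rw [hc]
    refine ⟨?_, m.syl.isP.map f, fun R h1 h2 hR => ?_⟩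
    · rintro _ ⟨a, -, rfl⟩
      exact (e a).2
    · have h3 := m.syl.max (R.comap f) (map_le_iff_le_comap.1 h1) le_top (hR.comap_of_injective f fi)
      rw [← h3]
      refine le_antisymm (fun r hr => ⟨e.symm ⟨r, h2 hr⟩, ?_, ?_⟩) (map_comap_le _ _)
      · show f _ ∈ R
        rw [hf, MulEquiv.apply_symm_apply]
        exact hr
      · rw [hf, MulEquiv.apply_symm_apply]
  · simpa only [← hf, map_pow, map_one] using T m.y13
  · simpa only [← hf, map_pow, map_one] using T m.y23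
  · simpa only [← hf, map_mul, map_inv] using T m.y1z
  · simpa only [← hf, map_mul, map_inv] using T m.y2z
  · simpa only [← hf, map_mul, map_inv] using T m.y1v
  · simpa only [← hf, map_mul, map_inv] using T m.y2v
  · simpa only [← hf, map_mul, map_inv] using T m.v2y
  · simpa only [← hf, map_mul, map_inv] using T m.v1y
  · intro x c1 c2
    obtain ⟨h1, h2⟩ := m.m1 (θ x) ((Tr_fix hθ _ _).2 c1) ((Tr_fix hθ _ _).2 c2)
    exact ⟨h1.imp (Tr_fix hθ _ _).1 (Tr_fixz hθ m.zz), h2.imp (Tr_fix hθ _ _).1 (Tr_fixz hθ m.zz)⟩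
  · intro x x2 c1 c2 a ha b hb ca cb az bz
    have ea : (e (e.symm ⟨a, ha⟩) : Q) = a := by rw [MulEquiv.apply_symm_apply]
    have eb : (e (e.symm ⟨b, hb⟩) : Q) = b := by rw [MulEquiv.apply_symm_apply]
    refine (hk x).1 (m.m2 (θ x) (by rw [← map_mul]; exact (hk _).2 x2) ((Tr_fix hθ _ _).2 c1)
      ((Tr_fix hθ _ _).2 c2) (e.symm ⟨a, ha⟩) (e.symm ⟨b, hb⟩) ((Tr_fix hθ _ _).2 (by rw [ea]; exact ca))
      ((Tr_fix hθ _ _).2 (by rw [eb]; exact cb)) (fi ?_) (fi ?_))
    · rw [map_mul, map_mul, map_inv, hf, hf, hf, ea, az]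
    · rw [map_mul, map_mul, map_inv, hf, hf, hf, eb, bz]

theorem sq_q {v1 v2 y1 : X} {P : Prop} (nL : L.Normal) (e : X ≃* L)
    (h : ∀ φ : MulAut X, φ * φ = 1 → φ v1 = v1 → φ v2 = v2 → φ y1 = y1 → φ = 1 ∨ P) {x : Q} (x2 : x * x ∈ 𝐂(L))
    (c1 : x * e v1 = e v1 * x) (c2 : x * e v2 = e v2 * x) (c3 : x * e y1 = e y1 * x) : x ∈ 𝐂(L) ∨ P := by
  obtain ⟨θ, hθ, hk⟩ := exists_aut nL e
  exact (h (θ x) (by rw [← map_mul]; exact (hk _).2 x2) ((Tr_fix hθ _ _).2 c1) ((Tr_fix hθ _ _).2 c2)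
    ((Tr_fix hθ _ _).2 c3)).imp_left (hk x).1

theorem no7_q (nL : L.Normal) (e : X ≃* L) (h : ∀ φ : MulAut X, φ ^ 7 = 1 → φ = 1) {x : Q} (x7 : x ^ 7 = 1) :
    x ∈ 𝐂(L) := by
  obtain ⟨θ, -, hk⟩ := exists_aut nL e
  exact (hk x).1 (h _ (by rw [← map_pow, x7, map_one]))

end H60M.MC
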