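import Mathlib
import Cfsg.Agent.Lib.M37.Defs
import Cfsg.Agent.Lib.A7S.Gen

/-! Lifting along `π`. -/

set_option autoImplicit false

namespace H60M.MC

open Subgroup H69 H36.SW H80.A6C

variable {Q : Type*} [Group Q] [Finite Q] {G : Type*} [Group G] [Finite G]
variable {t : G} {π : G → Q} {L : Subgroup Q} {z v1 v2 y1 y2 : Q}

namespace BasH

omit [Finite Q] in
theorem norm_pre (h : Hy t π L) {K : Subgroup Q} (hK : K.Normal) {g : G} (c : g * t = t * g) :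
    g ∈ 𝐍(h.pre K) := mem_normalizer_fintype fun _ ha =>
  h.mem_pre.2 ⟨Hy.cmul (Hy.cmul c ha.1) (Hy.cinv c), by
    rw [h.cj c ha.1]; exact hK.conj_mem _ ha.2 _⟩

omit [Finite Q] [Finite G] in
theorem le_range (h : Hy t π L) : L ≤ h.ρ.range := fun l hl =>
  let ⟨a, c, e⟩ := h.sur l hl
  ⟨⟨a, mem_centralizer_singleton_iff.2 c⟩, e⟩

end BasH

theorem Hy.inj (h : Hy t π L) {a : G} (c : a * t = t * a) (a2 : P2 a) (e : π a = 1) : a = 1 := by
  exact a2.eq_one (h.odd a c e)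

theorem Hy.eq2 (h : Hy t π L) {T : Subgroup G} (hT : IsPGroup 2 T) (hc : T ≤ centralizer {t}) {a b : G}
    (ha : a ∈ T) (hb : b ∈ T) (e : π a = π b) : a = b := by
  have ca : a * t = t * a := mem_centralizer_singleton_iff.1 (hc ha)
  have cb : b * t = t * b := mem_centralizer_singleton_iff.1 (hc hb)
  refine inv_mul_eq_one.1 (h.inj (Hy.cmul (Hy.cinv ca) cb)
    (P2.of_mem hT (mul_mem (inv_mem ha) hb)) ?_)
  rw [h.mul _ _ (Hy.cinv ca) cb, h.inv ca, e, inv_mul_cancel]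

theorem Hy.p2 (h : Hy t π L) {a : G} (c : a * t = t * a) (a2 : P2 a) : P2 (π a) := by
  obtain ⟨k, hk⟩ := a2
  refine ⟨k, ?_⟩
  have e : (⟨a, mem_centralizer_singleton_iff.2 c⟩ : centralizer ({t} : Set G)) ^ 2 ^ k = 1 :=
    Subtype.ext hk
  have := congrArg h.ρ e
  rwa [map_pow, map_one] at this

theorem Hy.k2 (h : Hy t π L) {k : G} (c : k * t = t * k) (k2 : P2 k) (e : π k ∈ 𝐂(L)) : k = 1 ∨ k = t := by
  rcases h.cL _ e with e1 | e1
  · exact Or.inl (h.inj c k2 e1)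
  · refine Or.inr ?_
    have := h.inj (Hy.cmul c rfl) (k2.mul (P2.of_sq h.tt) c)
      (by rw [h.mul _ _ c rfl, e1, ← h.mul _ _ rfl rfl, h.tt, h.one])
    rw [← h.tt] at this
    exact mul_right_cancel this

theorem Hy.HN (h : Hy t π L) {g : G} (c : g * t = t * g) : g ∈ 𝐍(h.pre L) := by
  exact BasH.norm_pre h h.nL c

theorem Hy.lift (h : Hy t π L) {W : Subgroup G} (hW : IsPGroup 2 W) (hc : W ≤ centralizer {t}) {a : G}
    (c : a * t = t * a) (n : ∀ w ∈ W, ∃ w' ∈ W, π w' = π a * π w * (π a)⁻¹) :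
    ∃ n, n * t = t * n ∧ n ∈ 𝐍(W) ∧ π n = π a := by
  have cw : ∀ w ∈ W, w * t = t * w := fun w hw => mem_centralizer_singleton_iff.1 (hc hw)
  obtain ⟨o, ho, hn⟩ := H25.A7.frat_odd (O := h.pre ⊥) (g := a) hW
    (fun o ho => h.odd o ho.1 (mem_bot.1 ho.2))
    (fun w hw => BasH.norm_pre h inferInstance (cw w hw)) (by
      rintro _ ⟨w, hw, rfl⟩
      obtain ⟨w', hw', e⟩ := n w hw
      have c1 : a * w * a⁻¹ * t = t * (a * w * a⁻¹) := Hy.cmul (Hy.cmul c (cw w hw)) (Hy.cinv c)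
      have : w'⁻¹ * (a * w * a⁻¹) ∈ h.pre ⊥ :=
        h.mem_pre.2 ⟨Hy.cmul (Hy.cinv (cw w' hw')) c1, mem_bot.2 (by
          rw [h.mul _ _ (Hy.cinv (cw w' hw')) c1, h.inv (cw w' hw'), h.cj c (cw w hw), e,
            inv_mul_cancel])⟩
      have := mul_mem (mem_sup_left hw' : w' ∈ W ⊔ h.pre ⊥) (mem_sup_right this)
      rw [mul_inv_cancel_left] at this
      exact this)
  exact ⟨o * a, Hy.cmul ho.1 c, hn, by rw [h.mul _ _ ho.1 c, mem_bot.1 ho.2, one_mul]⟩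

theorem Hy.card_dvd (h : Hy t π L) : Nat.card L ∣ Nat.card (h.pre L) := by
  let f : h.pre L →* L := MonoidHom.mk' (fun a => ⟨π a, a.2.2⟩) fun a b =>
    Subtype.ext (h.mul _ _ a.2.1 b.2.1)
  refine card_dvd_of_surjective f fun l => ?_
  obtain ⟨a, c, e⟩ := h.sur l l.2
  exact ⟨⟨a, h.mem_pre.2 ⟨c, e ▸ l.2⟩⟩, Subtype.ext e⟩

theorem Hy.pre' (h : Hy t π L) (m : Mq L z v1 v2 y1 y2) : ∃ T z' v1' v2', Pre t π L z v1 v2 T z' v1' v2' := by
  obtain ⟨T0, hT0⟩ := exists_isSylowIn 2 ((closure ({v1, v2} : Set Q)).comap h.ρ)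
  have h1 := hT0.map h.ρ
  rw [map_comap_eq_self (m.syl.le.trans (BasH.le_range h))] at h1
  have h2 := h1.max _ h1.le le_rfl m.syl.isP
  obtain ⟨T, hT, hle⟩ := exists_isSylowIn_le (hT0.isP.map (centralizer ({t} : Set G)).subtype)
    (map_subtype_le T0)
  have cT : ∀ w ∈ T, w * t = t * w := fun w hw => mem_centralizer_singleton_iff.1 (hT.le hw)
  have ex : ∀ q ∈ closure ({v1, v2} : Set Q), ∃ x ∈ T, π x = q := fun q hq => by
    rw [h2] at hq
    obtain ⟨x, hx, rfl⟩ := hq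
    exact ⟨x, hle (mem_map_of_mem _ hx), rfl⟩
  have m1 : v1 ∈ closure ({v1, v2} : Set Q) := subset_closure (by simp)
  have m2 : v2 ∈ closure ({v1, v2} : Set Q) := subset_closure (by simp)
  obtain ⟨z', zT, pz⟩ := ex z (m.hz ▸ mul_mem (mul_mem (mul_mem m1 m2) m1) m2)
  obtain ⟨v1', v1T, p1⟩ := ex v1 m1
  obtain ⟨v2', v2T, p2⟩ := ex v2 m2
  have DT : closure ({v1', v2'} : Set G) ≤ T := (closure_le _).2 (by
    rintro _ (rfl | rfl)
    exacts [v1T, v2T])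
  refine ⟨T, z', v1', v2', hT, zT, v1T, v2T, pz, p1, p2, fun x hx => ⟨fun hL => ?_, fun hD => ?_⟩⟩
  · have hR := m.syl.max (((T ⊓ h.pre L).subgroupOf (centralizer ({t} : Set G))).map h.ρ)
      (fun q hq => by
        obtain ⟨y, hy, rfl⟩ := ex q hq
        exact ⟨⟨y, hT.le hy⟩, mem_subgroupOf.2 ⟨hy, h.mem_pre.2 ⟨cT y hy, m.syl.le hq⟩⟩, rfl⟩)
      (by
        rintro _ ⟨y, hy, rfl⟩
        exact (mem_subgroupOf.1 hy).2.2)
      ((hT.isP.to_inf_left.comap_subtype).map _)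
    have hq : π x ∈ closure ({v1, v2} : Set Q) := by
      rw [← hR]
      exact ⟨⟨x, hT.le hx⟩, mem_subgroupOf.2 ⟨hx, h.mem_pre.2 ⟨cT x hx, hL⟩⟩, rfl⟩
    have key : ∀ q ∈ closure ({v1, v2} : Set Q), ∃ d ∈ closure ({v1', v2'} : Set G), π d = q := by
      intro q hq
      induction hq using closure_induction with
      | mem q hq =>
        rcases hq with rfl | rfl
        · exact ⟨v1', subset_closure (by simp), p1⟩
        · exact ⟨v2', subset_closure (by simp), p2⟩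
      | one => exact ⟨1, one_mem _, h.one⟩
      | mul a b _ _ ha hb =>
        obtain ⟨c, hc, rfl⟩ := ha
        obtain ⟨d, hd, rfl⟩ := hb
        exact ⟨c * d, mul_mem hc hd, h.mul _ _ (cT c (DT hc)) (cT d (DT hd))⟩
      | inv a _ ha =>
        obtain ⟨c, hc, rfl⟩ := ha
        exact ⟨c⁻¹, inv_mem hc, h.inv (cT c (DT hc))⟩
    obtain ⟨d, hd, e⟩ := key _ hq
    rw [h.eq2 hT.isP hT.le hx (DT hd) e.symm]
    exact hd
  · have : closure ({v1', v2'} : Set G) ≤ h.pre L := (closure_le _).2 (by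
      rintro _ (rfl | rfl)
      · exact h.mem_pre.2 ⟨cT _ v1T, p1 ▸ m.v1L⟩
      · exact h.mem_pre.2 ⟨cT _ v2T, p2 ▸ m.v2L⟩)
    exact (this hD).2

end H60M.MC
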