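import Mathlib
import Cfsg.Agent.Lib.M37.Defs
import Cfsg.Agent.Lib.AutCl.PSLAut

/-! An outer automorphism of `L₅(2)`. -/

set_option autoImplicit false

namespace H60M.MC

open Subgroup H69 H36.SW H80.A6C

variable {G : Type*} [Group G] [Finite G] {E : Subgroup G} {t : G}

namespace EL5H

open Matrix

variable {K : Type} [Field K] [Fintype K]

theorem one_of (hK : Fintype.card K = 2) {a : K} (h : a ≠ 0) : a = 1 := by
  have := FiniteField.pow_card_sub_one_eq_one a h
  rwa [hK, show 2 - 1 = 1 from rfl, pow_one] at this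

theorem two (hK : Fintype.card K = 2) : (2 : K) = 0 := by
  have := FiniteField.cast_card_eq_zero K
  rwa [hK, Nat.cast_ofNat] at this

theorem tr_sq (hK : Fintype.card K = 2) (M : Matrix (Fin 5) (Fin 5) K) : (M ^ 2).trace = M.trace := by
  have := FiniteField.trace_pow_card M
  rwa [FiniteField.pow_card, hK] at this

theorem mat (hK : Fintype.card K = 2) {X : Matrix (Fin 5) (Fin 5) K} (h7 : X ^ 7 = 1)
    (ht : (X ^ 6).trace = X.trace) : X = 1 := by
  classical
  have h2 := two hK
  let p : Submodule K (Fin 5 → K) := LinearMap.eqLocus (toLin' X) LinearMap.id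
  have mp : ∀ v, v ∈ p ↔ X *ᵥ v = v := fun v => Iff.rfl
  let N : Matrix (Fin 5) (Fin 5) K := 1 + X + X ^ 2 + X ^ 3 + X ^ 4 + X ^ 5 + X ^ 6
  have pw : ∀ v, X *ᵥ v = v → ∀ k : ℕ, (X ^ k) *ᵥ v = v := fun v hv k => by
    induction k with
    | zero => simp
    | succ k ih => rw [pow_succ, ← mulVec_mulVec, hv, ih]
  have pr : LinearMap.IsProj p (toLin' N) := by
    refine ⟨fun v => (mp _).2 ?_, fun v hv => ?_⟩
    · rw [toLin'_apply, mulVec_mulVec]
      congr 1
      have : X * N = X + X ^ 2 + X ^ 3 + X ^ 4 + X ^ 5 + X ^ 6 + X ^ 7 := by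
        simp only [N]; noncomm_ring
      rw [this, h7]; simp only [N]; abel
    · have q := pw v ((mp v).1 hv)
      simp only [toLin'_apply, N, add_mulVec, one_mulVec, q, (mp v).1 hv]
      funext i
      simp only [Pi.add_apply]
      linear_combination (3 * v i) * h2
  have t2 := tr_sq hK X
  have t4 : (X ^ 4).trace = X.trace := by rw [← t2, ← tr_sq hK (X ^ 2), ← pow_mul]
  have t3 : (X ^ 3).trace = X.trace := by rw [← ht, ← tr_sq hK (X ^ 3), ← pow_mul]
  have t5 : (X ^ 5).trace = X.trace := by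
    rw [← ht, ← tr_sq hK (X ^ 6), ← pow_mul, show 6 * 2 = 7 + 5 from rfl, pow_add, h7, one_mul]
  have tN : N.trace = 1 := by
    simp only [N, trace_add, t2, t3, t4, t5, ht, trace_one, Fintype.card_fin, Nat.cast_ofNat]
    linear_combination (2 + 3 * X.trace) * h2
  have r := pr.trace
  rw [trace_toLin'_eq, tN] at r
  haveI : Fact (Nat.Prime 7) := ⟨by norm_num⟩
  let f : Function.End (Fin 5 → K) := fun v => X *ᵥ v
  have fp : ∀ (k : ℕ) v, (f ^ k) v = (X ^ k) *ᵥ v := fun k => by
    induction k with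
    | zero => intro v; rw [pow_zero, pow_zero, one_mulVec]; rfl
    | succ k ih => intro v; rw [pow_succ, pow_succ, ← mulVec_mulVec, ← ih]; rfl
  have m := Equiv.Perm.card_fixedPoints_modEq (f := f) (p := 7) (n := 1)
    (funext fun v => by rw [pow_one, fp, h7, one_mulVec]; rfl)
  have cp : Fintype.card (Function.fixedPoints f) = 2 ^ Module.finrank K p := by
    rw [← hK, ← Module.card_eq_pow_finrank (K := K) (V := p)]
    exact Fintype.card_congr (Equiv.refl _)
  rw [cp, Fintype.card_fun, hK, Fintype.card_fin] at m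
  have le : Module.finrank K p ≤ 5 := (Submodule.finrank_le p).trans (by simp)
  have e5 : Module.finrank K p = 5 := by
    generalize Module.finrank K p = k at *
    interval_cases k
    · exact absurd m (by decide)
    · exact absurd m (by decide)
    · exact absurd (r.trans (by rw [Nat.cast_ofNat, h2])) one_ne_zero
    · exact absurd m (by decide)
    · exact absurd m (by decide)
    · rfl
  have top : p = ⊤ := Submodule.eq_top_of_finrank_eq (by rw [e5]; simp)
  refine toLin'.injective (LinearMap.ext fun v => ?_)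
  rw [toLin'_apply, toLin'_apply, one_mulVec]
  exact (mp v).1 (top ▸ Submodule.mem_top)

theorem mk_inj (hK : Fintype.card K = 2) {a b : SpecialLinearGroup (Fin 5) K}
    (h : (QuotientGroup.mk a : ProjectiveSpecialLinearGroup (Fin 5) K) = QuotientGroup.mk b) : a = b := by
  have h' : a⁻¹ * b ∈ center (SpecialLinearGroup (Fin 5) K) :=
    (QuotientGroup.eq (s := center (SpecialLinearGroup (Fin 5) K))).1 h
  obtain ⟨r, h1, h2⟩ := Matrix.SpecialLinearGroup.mem_center_iff.1 h'
  have : r = 1 := one_of hK fun r0 => by simp [r0] at h1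
  rw [this, map_one] at h2
  exact inv_mul_eq_one.1 (Subtype.ext h2.symm)

theorem aut (hK : Fintype.card K = 2) (β : MulAut (ProjectiveSpecialLinearGroup (Fin 5) K)) :
    ∃ u, β = MulAut.conj u ∨ β = MulAut.conj u * H67.pslDual (Fin 5) K := by
  obtain ⟨g, σ, h⟩ := H67.psl_aut (by simp) β
  have s1 : σ = 1 := RingEquiv.ext fun x => by
    by_cases x0 : x = 0
    · rw [x0, map_zero, map_zero]
    · rw [one_of hK x0, map_one, map_one]
  obtain ⟨s, rfl⟩ := H67.mem_range_toGL.2 (one_of hK (Matrix.GeneralLinearGroup.det_ne_zero g))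
  rw [s1, map_one, mul_one, H67.pslInn_toGL] at h
  exact ⟨_, h.imp id And.right⟩

theorem fix (hK : Fintype.card K = 2) {u y : ProjectiveSpecialLinearGroup (Fin 5) K} (h7 : y ^ 7 = 1)
    (h : u * H67.pslDual (Fin 5) K y * u⁻¹ = y) : y = 1 := by
  obtain ⟨s, rfl⟩ := QuotientGroup.mk_surjective u
  obtain ⟨X, rfl⟩ := QuotientGroup.mk_surjective y
  obtain ⟨Y, hY⟩ := H67.exists_j_eq (⟨H67.glDual (Fin 5) K, H67.dual_mem_stab_sl⟩ : H67.stabAut
    (SpecialLinearGroup.toGL : SpecialLinearGroup (Fin 5) K →* GL (Fin 5) K)) X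
  rw [H67.pslDual, H67.indAut_mk H67.toGL_inj _ hY] at h
  have e : s * Y * s⁻¹ = X := mk_inj hK h
  have e7 : X ^ 7 = 1 := mk_inj hK h7
  have i6 : X⁻¹ = X ^ 6 := inv_eq_of_mul_eq_one_right (by rw [← pow_succ', e7])
  have y : Y.1 = (X.1 ^ 6)ᵀ := by
    have := congrArg Units.val hY
    rw [H67.glDual_coe, ← map_inv, i6] at this
    exact this
  have : X.1 = 1 := mat hK (congrArg Subtype.val e7) (by
    rw [← trace_transpose, ← y, ← e]
    change _ = (s.1 * Y.1 * (s⁻¹).1).trace
    have k : (s⁻¹).1 * s.1 = 1 := congrArg Subtype.val (inv_mul_cancel s)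
    rw [trace_mul_cycle, k, one_mul])
  rw [show X = 1 from Subtype.ext this]; rfl

end EL5H

theorem endL5 (En : E.Normal) (cE : ∀ g ∈ 𝐂(E), g = 1) {K : Type} [Field K] [Fintype K] (hK : Fintype.card K = 2)
    (e : E ≃* Matrix.ProjectiveSpecialLinearGroup (Fin 5) K) (tE : t ∉ E) {x : G} (xE : x ∈ E) (x7 : x ^ 7 = 1)
    (c : x * t = t * x) : x = 1 := by
  let β : MulAut (Matrix.ProjectiveSpecialLinearGroup (Fin 5) K) := MulAut.congr e (MulAut.conjNormal t)
  have hβ : ∀ y : E, β (e y) = e (MulAut.conjNormal t y) := fun y => by simp [β, MulAut.congr]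
  obtain ⟨u, h | h⟩ := EL5H.aut hK β
  · obtain ⟨u, rfl⟩ := e.surjective u
    refine absurd ?_ tE
    have : (u : G)⁻¹ * t = 1 := cE _ (mem_centralizer_iff.2 fun y hy => by
      have a := hβ ⟨y, hy⟩
      rw [h, MulAut.conj_apply, ← map_inv, ← map_mul, ← map_mul] at a
      have b : (u : G) * y * (u : G)⁻¹ = t * y * t⁻¹ := congrArg Subtype.val (e.injective a)
      calc y * ((u : G)⁻¹ * t) = (u : G)⁻¹ * ((u : G) * y * (u : G)⁻¹) * t := by group
        _ = _ := by rw [b]; group)
    rw [← inv_mul_eq_one.1 this]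
    exact u.2
  · have a := hβ ⟨x, xE⟩
    rw [show MulAut.conjNormal t (⟨x, xE⟩ : E) = ⟨x, xE⟩ from
      Subtype.ext (show t * x * t⁻¹ = x by rw [← c, mul_inv_cancel_right]), h] at a
    have := EL5H.fix hK (by rw [← map_pow, show (⟨x, xE⟩ : E) ^ 7 = 1 from Subtype.ext x7, map_one]) a
    exact congrArg Subtype.val (e.map_eq_one_iff.1 this)

end H60M.MC
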