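import Mathlib
import Cfsg.Agent.Lib.B6S.Defs

/-! The list of the groups that occur. -/

set_option autoImplicit false

namespace H60M.MC

open Subgroup

variable {G : Type*} [Group G]

/-- the groups that occur, with the position of `t` -/
def Ends (E : Subgroup G) (t : G) : Prop :=
  (t ∉ E ∧ ((∃ (K : Type) (_ : Field K) (_ : Fintype K), Fintype.card K = 4 ∧ Nonempty (E ≃* Cfsg.PSp 2 K)) ∨
    (∃ (K : Type) (_ : Field K) (_ : Fintype K), Fintype.card K = 2 ∧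
      Nonempty (E ≃* Matrix.ProjectiveSpecialLinearGroup (Fin 5) K)) ∨
    (∃ (K : Type) (_ : Field K) (_ : Fintype K), Fintype.card K = 4 ∧ Nonempty (E ≃* Cfsg.PSU 5 K 2)) ∨
    Cfsg.Spor.IsoHe E)) ∨ (t ∈ E ∧ Cfsg.Spor.IsoHS E)

theorem Ends.of_equiv {H : Type*} [Group H] {E : Subgroup G} {t : G} {E' : Subgroup H} {t' : H} (h : Ends E t)
    (e : E' ≃* E) (m : t' ∈ E' ↔ t ∈ E) : Ends E' t' := by
  rcases h with ⟨a, b⟩ | ⟨a, ⟨i⟩⟩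
  · refine Or.inl ⟨mt m.1 a, ?_⟩
    rcases b with ⟨K, _, _, k, ⟨i⟩⟩ | ⟨K, _, _, k, ⟨i⟩⟩ | ⟨K, _, _, k, ⟨i⟩⟩ | ⟨⟨i⟩⟩
    · exact Or.inl ⟨K, _, _, k, ⟨e.trans i⟩⟩
    · exact Or.inr (Or.inl ⟨K, _, _, k, ⟨e.trans i⟩⟩)
    · exact Or.inr (Or.inr (Or.inl ⟨K, _, _, k, ⟨e.trans i⟩⟩))
    · exact Or.inr (Or.inr (Or.inr ⟨e.trans i⟩))
  · exact Or.inr ⟨m.2 a, ⟨e.trans i⟩⟩

theorem eqns_Ends : True := by
  have := @Ends.eq_1.{0}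
  trivial

end H60M.MC
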