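import Mathlib
import Cfsg.Agent.Lib.M37.Bas
import Cfsg.Agent.Lib.A6C.Bas

/-! The local frame. -/

set_option autoImplicit false
set_option linter.unusedSectionVars false
set_option linter.unusedSimpArgs false

namespace H60M.MC

open Subgroup H69 H36.SW H80.A6C

namespace FAH

/-- the relations of the dihedral group of order 8 -/
structure D8 {X : Type*} [Group X] (c a b : X) : Prop where
  aa : a * a = 1
  bb : b * b = 1
  cc : c * c = 1
  c1 : c ≠ 1
  hz : a * b * a * b = c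

namespace D8
variable {X : Type*} [Group X] {c a b : X} (h : D8 c a b)
include h

theorem aa' (x : X) : a * (a * x) = x := by rw [← mul_assoc, h.aa, one_mul]
theorem bb' (x : X) : b * (b * x) = x := by rw [← mul_assoc, h.bb, one_mul]
theorem cc' (x : X) : c * (c * x) = x := by rw [← mul_assoc, h.cc, one_mul]
theorem ai : a⁻¹ = a := inv_eq_of_mul_eq_one_left h.aa
theorem bi : b⁻¹ = b := inv_eq_of_mul_eq_one_left h.bb
theorem ci : c⁻¹ = c := inv_eq_of_mul_eq_one_left h.cc
theorem hz' : b * a * b * a = c := by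
  rw [← h.ci, ← h.hz]
  simp only [mul_inv_rev, h.ai, h.bi, mul_assoc]
theorem ca : c * a = a * c := by
  conv_lhs => rw [← h.hz]
  conv_rhs => rw [← h.hz']
  simp only [mul_assoc]
theorem cb : c * b = b * c := by
  conv_lhs => rw [← h.hz']
  conv_rhs => rw [← h.hz]
  simp only [mul_assoc]
theorem ba : b * a = c * (a * b) := by
  rw [← h.hz']
  simp only [mul_assoc, h.aa', h.bb, mul_one]
theorem ac' (x : X) : a * (c * x) = c * (a * x) := by rw [← mul_assoc, ← h.ca, mul_assoc]
theorem bc' (x : X) : b * (c * x) = c * (b * x) := by rw [← mul_assoc, ← h.cb, mul_assoc]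
theorem ba' (x : X) : b * (a * x) = c * (a * (b * x)) := by
  rw [← mul_assoc, h.ba]; simp only [mul_assoc]
theorem sq : a * b * (a * b) = c := by rw [← h.hz]; simp only [mul_assoc]
theorem symm : D8 c b a := ⟨h.bb, h.aa, h.cc, h.c1, h.hz'⟩
theorem ac : a ≠ c := fun e => h.c1 (by
  have := h.hz
  rw [e, mul_assoc, mul_assoc, h.bc', h.bb, mul_one, h.cc] at this
  exact this.symm)
theorem a1 : a ≠ 1 := fun e => h.c1 (by
  have := h.hz
  rw [e, one_mul, mul_one, h.bb] at this
  exact this.symm)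
theorem ab : a ≠ b := fun e => h.c1 (by
  have := h.hz
  rw [e, h.bb, one_mul, h.bb] at this
  exact this.symm)
theorem acb : a ≠ c * b := fun e => h.c1 (by
  have := h.hz
  rw [e] at this
  simp only [mul_assoc, h.bb', h.bc', h.cc', h.bb, h.cc, mul_one] at this
  exact this.symm)
theorem mem {d : X} (hd : d ∈ closure ({a, b} : Set X)) : d = 1 ∨ d = c ∨ d = a ∨ d = c * a ∨ d = b ∨
    d = c * b ∨ d = a * b ∨ d = b * a := by
  induction hd using closure_induction with
  | mem x hx => rcases hx with rfl | rfl <;> simp only [true_or, or_true]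
  | one => exact Or.inl rfl
  | mul x y _ _ hx hy =>
    rcases hx with e | e | e | e | e | e | e | e <;>
      rcases hy with e' | e' | e' | e' | e' | e' | e' | e' <;> rw [e, e'] <;>
      simp only [mul_assoc, one_mul, mul_one, h.aa', h.bb', h.cc', h.ac', h.bc', h.ba', h.aa, h.bb, h.cc,
        ← h.ca, ← h.cb, h.ba, true_or, or_true]
  | inv x _ hx =>
    rcases hx with e | e | e | e | e | e | e | e <;> rw [e] <;>
      simp only [mul_inv_rev, inv_one, h.ai, h.bi, h.ci, ← h.ca, ← h.cb, true_or, or_true]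

theorem sqD {d : X} (hd : d ∈ closure ({a, b} : Set X)) : d * d = 1 ∨ d * d = c := by
  rcases h.mem hd with e | e | e | e | e | e | e | e <;> rw [e] <;>
    simp only [mul_assoc, one_mul, mul_one, h.aa', h.bb', h.cc', h.ac', h.bc', h.ba', h.aa, h.bb, h.cc,
      h.ba, true_or, or_true]

theorem inv {d : X} (hd : d ∈ closure ({a, b} : Set X)) (d2 : d * d = 1) (d1 : d ≠ 1) (dc : d ≠ c) :
    (d = a ∨ d = c * a) ∨ (d = b ∨ d = c * b) := by
  rcases h.mem hd with e | e | e | e | e | e | e | e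
  · exact absurd e d1
  · exact absurd e dc
  · exact .inl (.inl e)
  · exact .inl (.inr e)
  · exact .inr (.inl e)
  · exact .inr (.inr e)
  · exact absurd (by rw [← h.sq, ← e, d2]) h.c1
  · exact absurd (by rw [← h.symm.sq, ← e, d2]) h.c1

theorem same {p q : X} (hp : p = a ∨ p = c * a) (hq : q = a ∨ q = c * a) : p * q * (p * q) = 1 := by
  rcases hp with e | e <;> rcases hq with e' | e' <;> rw [e, e'] <;>
    simp only [mul_assoc, one_mul, mul_one, h.aa', h.cc', h.ac', h.aa, h.cc]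

theorem dis {p : X} (hp : p = a ∨ p = c * a) (hq : p = b ∨ p = c * b) : False := by
  rcases hp with e | e <;> rcases hq with e' | e' <;> rw [e] at e'
  · exact h.ab e'
  · exact h.acb e'
  · exact h.symm.acb e'.symm
  · exact h.ab (mul_left_cancel e')

section
variable {x : X} (n : ∀ d ∈ closure ({a, b} : Set X), x * d * x⁻¹ ∈ closure ({a, b} : Set X))
include n

theorem xc : x * c * x⁻¹ = c := by
  have m : a * b ∈ closure ({a, b} : Set X) := mul_mem (subset_closure (by simp)) (subset_closure (by simp))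
  rcases h.sqD (n _ m) with e | e <;> rw [conj_mul, h.sq] at e
  · exact absurd e (cjne h.c1 x)
  · exact e

theorem act : ((x * a * x⁻¹ = a ∨ x * a * x⁻¹ = c * a) ∧ (x * b * x⁻¹ = b ∨ x * b * x⁻¹ = c * b)) ∨
    ((x * a * x⁻¹ = b ∨ x * a * x⁻¹ = c * b) ∧ (x * b * x⁻¹ = a ∨ x * b * x⁻¹ = c * a)) := by
  have k : ∀ {u : X}, u ≠ c → x * u * x⁻¹ ≠ c := fun hu e => hu (by
    rw [← h.xc n] at e
    exact mul_left_cancel (mul_right_cancel e))
  have e1 := h.inv (n a (subset_closure (by simp))) (cjsq h.aa x) (cjne h.a1 x) (k h.ac)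
  have e2 := h.inv (n b (subset_closure (by simp))) (cjsq h.bb x) (cjne h.symm.a1 x) (k h.symm.ac)
  have s : x * a * x⁻¹ * (x * b * x⁻¹) * (x * a * x⁻¹ * (x * b * x⁻¹)) ≠ 1 := by
    rw [conj_mul, conj_mul, h.sq]
    exact cjne h.c1 x
  rcases e1 with e1 | e1 <;> rcases e2 with e2 | e2
  · exact absurd (h.same e1 e2) s
  · exact .inl ⟨e1, e2⟩
  · exact .inr ⟨e1, e2⟩
  · exact absurd (h.symm.same e1 e2) s

end

theorem adj {p q : X} (hp : p = a ∨ p = c * a) (hq : q = b ∨ q = c * b) :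
    ∃ d ∈ closure ({a, b} : Set X), d * a * d⁻¹ = p ∧ d * b * d⁻¹ = q := by
  have ma : a ∈ closure ({a, b} : Set X) := subset_closure (by simp)
  have mb : b ∈ closure ({a, b} : Set X) := subset_closure (by simp)
  rcases hp with e | e <;> rcases hq with e' | e' <;> rw [e, e']
  · exact ⟨1, one_mem _, by simp, by simp⟩
  · refine ⟨a, ma, ?_, ?_⟩ <;>
      simp only [mul_inv_rev, h.ai, h.bi, mul_assoc, mul_one, one_mul, h.aa', h.bb', h.cc', h.ac', h.bc', h.ba', h.aa,
        h.bb, h.cc, h.ba, ← h.ca, ← h.cb]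
  · refine ⟨b, mb, ?_, ?_⟩ <;>
      simp only [mul_inv_rev, h.ai, h.bi, mul_assoc, mul_one, one_mul, h.aa', h.bb', h.cc', h.ac', h.bc', h.ba', h.aa,
        h.bb, h.cc, h.ba, ← h.ca, ← h.cb]
  · refine ⟨a * b, mul_mem ma mb, ?_, ?_⟩ <;>
      simp only [mul_inv_rev, h.ai, h.bi, mul_assoc, mul_one, one_mul, h.aa', h.bb', h.cc', h.ac', h.bc', h.ba', h.aa,
        h.bb, h.cc, h.ba, ← h.ca, ← h.cb]

end D8

variable {Q : Type*} [Group Q] [Finite Q] {G : Type*} [Group G] [Finite G]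
variable {t : G} {π : G → Q} {L : Subgroup Q} {z v1 v2 y1 y2 : Q}

theorem mqD (m : Mq L z v1 v2 y1 y2) : D8 z v1 v2 := ⟨m.v11, m.v22, m.zz, m.z1, m.hz⟩

theorem key (h : Hy t π L) (m : Mq L z v1 v2 y1 y2) {T : Subgroup G} (hT : IsPGroup 2 T)
    (hc : T ≤ centralizer {t}) {a b : Q} (aL : a ∈ L) (bL : b ∈ L) (az : a * z * a⁻¹ = v1)
    (bz : b * z * b⁻¹ = v2) {x : G} (hx : x ∈ T) (c1 : Commute (π x) v1) (c2 : Commute (π x) v2)
    (ca : Commute (π x) a) (cb : Commute (π x) b) : x = 1 ∨ x = t := by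
  obtain ⟨k, hk⟩ := P2.of_mem hT hx
  induction k generalizing x with
  | zero => exact .inl (by simpa using hk)
  | succ k ih =>
    have xt : x * t = t * x := mem_centralizer_singleton_iff.1 (hc hx)
    have e : π (x * x) = π x * π x := h.mul _ _ xt xt
    have := ih (mul_mem hx hx) (e ▸ c1.mul_left c1) (e ▸ c2.mul_left c2) (e ▸ ca.mul_left ca)
      (e ▸ cb.mul_left cb) (by rw [← pow_two, ← pow_mul, ← pow_succ', hk])
    refine h.k2 xt ⟨_, hk⟩ (m.m2 _ ?_ c1 c2 a aL b bL ca cb az bz)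
    rw [← e]
    rcases this with e' | e' <;> rw [e']
    · rw [h.one]; exact one_mem _
    · exact h.tC

end FAH

open FAH

variable {Q : Type*} [Group Q] [Finite Q] {G : Type*} [Group G] [Finite G]
variable {t : G} {π : G → Q} {L : Subgroup Q} {z v1 v2 y1 y2 : Q}

theorem Hy.lf (h : Hy t π L) (m : Mq L z v1 v2 y1 y2) : ∃ F : Lf G, F.t = t ∧ Lq F π L z v1 v2 y1 y2 := by
  obtain ⟨T, c, a, b, p⟩ := h.pre' m
  have hT := p.syl.isP
  have hc : T ≤ centralizer {t} := p.syl.le
  have Tt : ∀ {x}, x ∈ T → x * t = t * x := fun hx => mem_centralizer_singleton_iff.1 (hc hx)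
  have mu : ∀ {x y}, x ∈ T → y ∈ T → π (x * y) = π x * π y := fun hx hy => h.mul _ _ (Tt hx) (Tt hy)
  have iv : ∀ {x}, x ∈ T → π x⁻¹ = (π x)⁻¹ := fun hx => h.inv (Tt hx)
  have cj : ∀ {x y}, x ∈ T → y ∈ T → π (x * y * x⁻¹) = π x * π y * (π x)⁻¹ := fun hx hy => h.cj (Tt hx) (Tt hy)
  have eq : ∀ {x y}, x ∈ T → y ∈ T → π x = π y → x = y := fun hx hy e => h.eq2 hT hc hx hy e
  have aT := p.v1T
  have bT := p.v2T
  have cT := p.zT
  have q := mqD m
  have tT : t ∈ T := p.syl.le_of_le_normalizer (P2.of_sq h.tt).zpowers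
    (zpowers_le.2 (mem_centralizer_singleton_iff.2 rfl))
    (le_normalizer_of_le_centralizer fun x hx => by
      rintro _ ⟨k, rfl⟩
      exact ((show Commute x t from Tt hx).zpow_right k).eq.symm) (mem_zpowers t)
  have d : D8 c a b :=
    ⟨eq (mul_mem aT aT) (one_mem _) (by rw [mu aT aT, p.p1, h.one, m.v11]),
      eq (mul_mem bT bT) (one_mem _) (by rw [mu bT bT, p.p2, h.one, m.v22]),
      eq (mul_mem cT cT) (one_mem _) (by rw [mu cT cT, p.pz, h.one, m.zz]),
      fun e => m.z1 (by rw [← p.pz, e, h.one]),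
      eq (mul_mem (mul_mem (mul_mem aT bT) aT) bT) cT (by
        rw [mu (mul_mem (mul_mem aT bT) aT) bT, mu (mul_mem aT bT) aT, mu aT bT, p.p1, p.p2, p.pz, m.hz])⟩
  have DT : closure ({a, b} : Set G) ≤ T := (closure_le _).2 (by rintro _ (rfl | rfl); exacts [aT, bT])
  have Dn : ∀ {x}, x ∈ T → ∀ u ∈ closure ({a, b} : Set G), x * u * x⁻¹ ∈ closure ({a, b} : Set G) :=
    fun hx u hu => (p.TA _ (mul_mem (mul_mem hx (DT hu)) (inv_mem hx))).1 (by
      rw [cj hx (DT hu)]
      exact h.nL.conj_mem _ ((p.TA _ (DT hu)).2 hu) _)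
  have zL : z ∈ L := m.hz ▸ mul_mem (mul_mem (mul_mem m.v1L m.v2L) m.v1L) m.v2L
  have RC : ∀ {r}, r = 1 ∨ r = t → ∀ {l}, l ∈ L → Commute (π r) l := fun hr l hl => by
    rcases hr with e | e <;> rw [e]
    · rw [h.one]; exact Commute.one_left _
    · exact (h.tC l hl).symm
  have RT : ∀ {r}, r = 1 ∨ r = t → r ∈ T := fun hr => hr.elim (· ▸ one_mem _) (· ▸ tT)
  have Rx : ∀ {r}, r = 1 ∨ r = t → ∀ {x}, x ∈ T → Commute x r := fun hr x hx => by
    rcases hr with e | e <;> rw [e]
    · exact Commute.one_right _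
    · exact Tt hx
  have zv1 : Commute z v1 := q.ca
  have zv2 : Commute z v2 := q.cb
  have cz : ∀ {w : Q}, Commute w v1 → Commute w v2 → Commute w z := fun h1 h2 =>
    m.hz ▸ ((h1.mul_right h2).mul_right h1).mul_right h2
  have up : ∀ {x y}, x ∈ T → y ∈ T → Commute (π x) (π y) → Commute x y := fun hx hy k =>
    eq (mul_mem hx hy) (mul_mem hy hx) (by rw [mu hx hy, mu hy hx]; exact k)
  have dn : ∀ {x y}, x ∈ T → y ∈ T → Commute x y → Commute (π x) (π y) := fun hx hy k => by
    show _ = _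
    rw [← mu hx hy, ← mu hy hx, k.eq]
  have K : ∀ {x}, x ∈ T → Commute (π x) v1 → Commute (π x) v2 → Commute (π x) y1 → Commute (π x) y2 →
      x = 1 ∨ x = t := fun hx => key h m hT hc m.y1L m.y2L m.y1z m.y2z hx
  obtain ⟨f, fT, f1, f2, f3, f4, f5⟩ : ∃ f ∈ T, Commute (π f) v1 ∧ Commute (π f) v2 ∧ Commute (π f) y1 ∧
      (f ≠ 1 → Commute (z * π f) y2) ∧ ∀ x ∈ T, Commute (π x) v1 → Commute (π x) v2 → Commute (π x) y1 →
        Commute (z * π x) y2 → Commute (z * π f) y2 := by
    by_cases hx : ∃ x ∈ T, Commute (π x) v1 ∧ Commute (π x) v2 ∧ Commute (π x) y1 ∧ Commute (z * π x) y2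
    · obtain ⟨x, hx, e1, e2, e3, e4⟩ := hx
      exact ⟨x, hx, e1, e2, e3, fun _ => e4, fun _ _ _ _ _ _ => e4⟩
    · refine ⟨1, one_mem _, ?_, ?_, ?_, fun e => absurd rfl e, fun x h1 e1 e2 e3 e4 =>
        absurd ⟨x, h1, e1, e2, e3, e4⟩ hx⟩ <;> rw [h.one] <;> exact Commute.one_left _
  have C1 : ∀ {x}, x ∈ T → Commute (π x) v1 → Commute (π x) v2 → Commute (π x) y1 →
      (x = 1 ∨ x = t) ∨ (x * f⁻¹ = 1 ∨ x * f⁻¹ = t) := fun {x} hx e1 e2 e3 => by
    rcases (m.m1 _ e1 e2).2 with e4 | e4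
    · exact .inl (K hx e1 e2 e3 e4)
    · have e5 := f5 x hx e1 e2 e3 e4
      have e : π (x * f⁻¹) = π x * (π f)⁻¹ := by rw [mu hx (inv_mem fT), iv fT]
      refine .inr (K (mul_mem hx (inv_mem fT)) (e ▸ e1.mul_left f1.inv_left) (e ▸ e2.mul_left f2.inv_left)
        (e ▸ e3.mul_left f3.inv_left) ?_)
      have e6 : π x * (π f)⁻¹ = z * π x * (z * π f)⁻¹ := by
        rw [← (cz e1 e2).eq, ← (cz f1 f2).eq]; group
      rw [e, e6]
      exact (show Commute (z * π x) y2 from e4).mul_left e5.inv_left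
  have CC : ∀ {x}, x ∈ T → Commute (π x) v1 → Commute (π x) v2 → ∃ r, (r = 1 ∨ r = t) ∧
      (x = r ∨ x = r * f ∨ x = c * r ∨ x = c * (r * f)) := fun {x} hx e1 e2 => by
    rcases (m.m1 _ e1 e2).1 with e3 | e3
    · rcases C1 hx e1 e2 e3 with k | k
      · exact ⟨x, k, .inl rfl⟩
      · exact ⟨_, k, .inr (.inl (by group))⟩
    · have e : π (c * x) = z * π x := by rw [mu cT hx, p.pz]
      rcases C1 (mul_mem cT hx) (e ▸ zv1.mul_left e1) (e ▸ zv2.mul_left e2) (e ▸ e3) with k | k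
      · exact ⟨_, k, .inr (.inr (.inl (d.cc' x).symm))⟩
      · exact ⟨_, k, .inr (.inr (.inr (by rw [inv_mul_cancel_right, d.cc'])))⟩
  have D0 : closure ({a, b} : Set G) ≤ zpowers t ⊔ closure ({a, b, f} : Set G) :=
    (Subgroup.closure_mono (by rintro _ (rfl | rfl) <;> simp)).trans le_sup_right
  have f0 : f ∈ zpowers t ⊔ closure ({a, b, f} : Set G) := mem_sup_right (subset_closure (by simp))
  have aD : a ∈ closure ({a, b} : Set G) := subset_closure (by simp)
  have bD : b ∈ closure ({a, b} : Set G) := subset_closure (by simp)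
  have cD : c ∈ closure ({a, b} : Set G) := d.hz ▸ mul_mem (mul_mem (mul_mem aD bD) aD) bD
  have C0 : ∀ {x}, x ∈ T → Commute x a → Commute x b → x ∈ zpowers t ⊔ closure ({a, b, f} : Set G) :=
    fun hx e1 e2 => by
      obtain ⟨r, hr, k⟩ := CC hx (p.p1 ▸ dn hx aT e1) (p.p2 ▸ dn hx bT e2)
      have r0 : r ∈ zpowers t ⊔ closure ({a, b, f} : Set G) := mem_sup_left ((mem_zp h.tt).2 hr)
      rcases k with k | k | k | k <;> rw [k]
      exacts [r0, mul_mem r0 f0, mul_mem (D0 cD) r0, mul_mem (D0 cD) (mul_mem r0 f0)]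
  have sw : ∀ {x}, x ∈ T → x ∉ zpowers t ⊔ closure ({a, b, f} : Set G) →
      (x * a * x⁻¹ = b ∨ x * a * x⁻¹ = c * b) ∧ (x * b * x⁻¹ = a ∨ x * b * x⁻¹ = c * a) := fun {x} hx n => by
    refine (d.act (Dn hx)).resolve_left fun k => n ?_
    obtain ⟨u, hu, e1, e2⟩ := d.adj k.1 k.2
    rw [← mul_inv_cancel_left u x]
    refine mul_mem (D0 hu) (C0 (mul_mem (inv_mem (DT hu)) hx) ?_ ?_)
    · show _ = _
      calc u⁻¹ * x * a = u⁻¹ * (x * a * x⁻¹) * x := by group
        _ = _ := by rw [← e1]; group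
    · show _ = _
      calc u⁻¹ * x * b = u⁻¹ * (x * b * x⁻¹) * x := by group
        _ = _ := by rw [← e2]; group
  have fa : Commute f a := up fT aT (p.p1.symm ▸ f1)
  have fb : Commute f b := up fT bT (p.p2.symm ▸ f2)
  have fD : ∀ {u}, u ∈ closure ({a, b} : Set G) → Commute f u := fun hu => by
    have : closure ({a, b} : Set G) ≤ centralizer {f} := (closure_le _).2 (by
      rintro _ (rfl | rfl)
      exacts [mem_centralizer_singleton_iff.2 fa.symm, mem_centralizer_singleton_iff.2 fb.symm])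
    exact (mem_centralizer_singleton_iff.1 (this hu)).symm
  have fR : f ≠ 1 → ¬(f = 1 ∨ f = t) := fun n k => by
    have e : Commute z y2 := by
      have := (f4 n).mul_left (RC k m.y2L).inv_left
      rwa [mul_inv_cancel_right] at this
    exact q.symm.ac (by rw [← m.y2z, ← e.eq, mul_inv_cancel_right])
  have cfR : ¬(c * f = 1 ∨ c * f = t) := fun k => by
    have e : Commute z y1 := by
      have := (RC k m.y1L).mul_left f3.inv_left
      rwa [mu cT fT, p.pz, mul_inv_cancel_right] at this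
    exact q.ac (by rw [← m.y1z, ← e.eq, mul_inv_cancel_right])
  refine ⟨{
    T := T, R := zpowers t, t := t, z := c, v1 := a, v2 := b, f := f
    syl := p.syl, tt := h.tt, t1 := h.t1, zz := d.cc, z1 := d.c1, v11 := d.aa, v22 := d.bb, hz := d.hz
    v1T := aT, v2T := bT, fT := fT
    RT := zpowers_le.2 tT
    tR := mem_zpowers t
    zR := fun k => ((mem_zp h.tt).1 k).elim d.c1 fun e => h.tL (by rw [← e, p.pz]; exact zL)
    cyc := inferInstance
    Rn := fun x hx => mem_normalizer_fintype fun r hr => by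
      rw [(Rx ((mem_zp h.tt).1 hr) hx).eq, mul_inv_cancel_right]; exact hr
    Dn := fun x hx => mem_normalizer_fintype (Dn hx)
    Rv1 := fun r hr => (Rx ((mem_zp h.tt).1 hr) aT).symm
    Rv2 := fun r hr => (Rx ((mem_zp h.tt).1 hr) bT).symm
    fv1 := fa, fv2 := fb
    ff := (mem_zp h.tt).2 (by
      by_cases n : f = 1
      · exact .inl (by rw [n, mul_one])
      have e := mu fT fT
      refine K (mul_mem fT fT) (e ▸ f1.mul_left f1) (e ▸ f2.mul_left f2) (e ▸ f3.mul_left f3) ?_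
      have e6 : π f * π f = z * π f * (z * π f) := by
        rw [mul_assoc, ← mul_assoc (π f), (cz f1 f2).eq, mul_assoc, q.cc']
      rw [e, e6]
      exact (f4 n).mul_left (f4 n))
    hf := (eq_or_ne f 1).imp_right fun n => ⟨fun k => fR n ((mem_zp h.tt).1 k), fun k => cfR ((mem_zp h.tt).1 k)⟩
    idx := fun x hx y hy mx my => by
      by_contra n
      refine d.dis (p := x * y * a * (x * y)⁻¹) ?_ (sw (mul_mem hx hy) n).1
      have e : x * y * a * (x * y)⁻¹ = x * (y * a * y⁻¹) * x⁻¹ := by group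
      rw [e]
      rcases (sw hy my).1 with k | k <;> rw [k]
      · exact (sw hx mx).2
      · rw [← conj_mul, d.xc (Dn hx)]
        rcases (sw hx mx).2 with k' | k' <;> rw [k']
        · exact .inr rfl
        · exact .inl (d.cc' a)
    sw1 := fun x hx n => (sw hx n).1
    sw2 := fun x hx n => (sw hx n).2
    swf := fun x hx n n1 => (mem_zp h.tt).2 (by
      have gT := mul_mem (mul_mem hx fT) (inv_mem hx)
      have gc : ∀ {u}, u ∈ closure ({a, b} : Set G) → Commute (x * f * x⁻¹) u := fun {u} hu => by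
        have := (fD (Dn (inv_mem hx) u hu)).eq
        show _ = _
        calc x * f * x⁻¹ * u = x * (f * (x⁻¹ * u * x⁻¹⁻¹)) * x⁻¹ := by group
          _ = _ := by rw [this]; group
      obtain ⟨r, hr, k⟩ := CC gT (p.p1 ▸ dn gT aT (gc aD)) (p.p2 ▸ dn gT bT (gc bD))
      have xr := (Rx hr hx).eq
      have xc := d.xc (Dn hx)
      rcases k with k | k | k | k
      · refine absurd ?_ (fR n1)
        have : f = r := by
          calc f = x⁻¹ * (x * f * x⁻¹) * x := by group
            _ = r := by rw [k, mul_assoc, ← xr, inv_mul_cancel_left]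
        exact this ▸ hr
      · refine absurd ?_ (fR n1)
        have e : π f = (π r)⁻¹ * (π x * π f * (π x)⁻¹) := by
          rw [← cj hx fT, k, mu (RT hr) fT, inv_mul_cancel_left]
        have yL : π x * y1 * (π x)⁻¹ ∈ L := h.nL.conj_mem _ m.y1L _
        have cy : Commute (π f) (π x * y1 * (π x)⁻¹) := by
          rw [e]
          refine (RC hr yL).inv_left.mul_left ?_
          show _ = _
          rw [conj_mul, conj_mul, f3.eq]
        have xz : π x * z * (π x)⁻¹ = z := by rw [← p.pz, ← cj hx cT, xc]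
        have yz : π x * y1 * (π x)⁻¹ * z * (π x * y1 * (π x)⁻¹)⁻¹ = π (x * a * x⁻¹) := by
          rw [cj hx aT, p.p1, ← m.y1z]
          conv_lhs => rw [← xz]
          group
        rcases (sw hx n).1 with k' | k' <;> rw [k'] at yz
        · exact key h m hT hc m.y1L yL m.y1z (yz.trans p.p2) fT f1 f2 f3 cy
        · refine key h m hT hc m.y1L (mul_mem m.v1L yL) m.y1z ?_ fT f1 f2 f3 (f1.mul_right cy)
          calc _ = v1 * (π x * y1 * (π x)⁻¹ * z * (π x * y1 * (π x)⁻¹)⁻¹) * v1⁻¹ := by group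
            _ = v2 := by
              rw [yz, mu cT bT, p.pz, p.p2, q.ai]
              simp only [mul_assoc, q.ac', q.ba, q.cc', q.aa']
      · refine absurd ?_ cfR
        have : c * f = r := by
          calc c * f = x⁻¹ * ((x * c * x⁻¹) * (x * f * x⁻¹)) * x := by group
            _ = r := by rw [k, xc, d.cc', mul_assoc, ← xr, inv_mul_cancel_left]
        exact this ▸ hr
      · have : x * f * x⁻¹ * (c * f)⁻¹ = r := by
          rw [k, ← mul_assoc, (Rx hr cT).eq]; group
        exact this ▸ hr) }, rfl,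
    fun r hr => (mem_zp h.tt).1 hr, p.pz, p.p1, p.p2, p.TA, f3, f4⟩

end H60M.MC
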