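import Mathlib
import Cfsg.Agent.Lib.M37.Defs
import Cfsg.Agent.Lib.A6C.Bas

/-! Normalisers of the two elementary abelian subgroups. -/

set_option autoImplicit false
set_option linter.unusedVariables false
set_option linter.unusedSimpArgs false

namespace H60M.MC

open Subgroup H69 H36.SW H80.A6C

variable {G : Type*} [Group G] [Finite G] {F : Lf G} {A E : Subgroup G} {y1 y2 : G}

namespace FB1H

omit [Finite G] in
theorem el {s : Set G} (h2 : ∀ x ∈ s, x * x = 1) (hc : ∀ x ∈ s, ∀ y ∈ s, x * y = y * x) :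
    IsPGroup 2 (closure s) := by
  have := isMulCommutative_closure hc
  refine isP_of_P2 fun x hx => ?_
  induction hx using closure_induction with
  | mem x hx => exact .of_sq (h2 x hx)
  | one => exact .of_sq (mul_one 1)
  | mul x y hx hy h1 h2 => exact h1.mul h2 (setLike_mul_comm hx hy)
  | inv x _ h1 => exact h1.inv

theorem nrm {s : Set G} {g : G} (h : ∀ x ∈ s, g * x * g⁻¹ ∈ closure s) : g ∈ 𝐍(closure s) := by
  have : closure s ≤ (closure s).comap (MulAut.conj g).toMonoidHom := (closure_le _).2 h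
  refine mem_normalizer_of_cj_le fun x hx => ?_
  obtain ⟨y, hy, rfl⟩ := mem_cj'.1 hx
  exact this hy

omit [Finite G] in
theorem cl {s : Set G} {y x : G} (h : ∀ a ∈ s, a * y = y * a) (hx : x ∈ closure s) : x * y = y * x := by
  have : closure s ≤ centralizer {y} := (closure_le _).2 fun a ha => mem_centralizer_singleton_iff.2 (h a ha)
  exact mem_centralizer_singleton_iff.1 (this hx)

theorem cenv (F : Lf G) {a d : G} (ha : a = F.v1 ∨ a = F.v2) (hd : d ∈ F.D) (h : d * a = a * d) :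
    d = 1 ∨ d = F.z ∨ d = a ∨ d = F.z * a := by
  rcases ha with rfl | rfl
  exacts [F.cen1 hd h, F.cen2 hd h]

theorem nf (F : Lf G) (h : F.R2) {a x : G} (ha : a = F.v1 ∨ a = F.v2) (hx : x ∈ F.T) (xa : x * a = a * x) :
    ∃ r d e, (r = 1 ∨ r = F.t) ∧ d ∈ F.D ∧ d * a = a * d ∧ (e = 1 ∨ e = F.f) ∧ x = r * d * e := by
  have aD : a ∈ F.D := by
    rcases ha with rfl | rfl
    exacts [F.v1D, F.v2D]
  have x0 : x ∈ F.T0 := by
    rcases ha with rfl | rfl
    · exact F.in0 hx (by rw [xa, mul_inv_cancel_right, F.v11, one_mul])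
    · by_contra h0
      have hz := F.hz
      rcases F.sw2 x hx h0 with e | e <;> rw [xa, mul_inv_cancel_right] at e <;> rw [e] at hz <;>
        simp only [mul_assoc, one_mul, F.bs_aa, F.bs_zz, F.v11] at hz <;> exact F.z1 hz.symm
  obtain ⟨r, hr, d, hd, e⟩ := F.mem0.1 x0
  have ra : Commute r a := F.RD hr aD
  have fa : Commute F.f a := F.fD aD
  rcases e with e | e
  · refine ⟨r, d, 1, h r hr, hd, ?_, Or.inl rfl, by rw [e, mul_one]⟩
    have : d = r⁻¹ * x := by rw [e]; group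
    rw [this]
    exact (ra.inv_left.mul_left xa).eq
  · refine ⟨r, d, F.f, h r hr, hd, ?_, Or.inr rfl, e⟩
    have : d = r⁻¹ * x * F.f⁻¹ := by rw [e]; group
    rw [this]
    exact ((ra.inv_left.mul_left xa).mul_left fa.inv_left).eq

theorem abel (F : Lf G) (h : F.R2) {a x y : G} (ha : a = F.v1 ∨ a = F.v2) (hx : x ∈ F.T) (hy : y ∈ F.T)
    (xa : x * a = a * x) (ya : y * a = a * y) : x * y = y * x := by
  have xt : Commute x F.t := F.Tt hx
  have xz : Commute x F.z := F.Tz hx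
  have xa' : Commute x a := xa
  have xf : Commute x F.f := by
    obtain ⟨r, d, e, hr, hd, -, he, rfl⟩ := nf F h ha hx xa
    refine (Commute.mul_left ?_ (F.fD hd).symm).mul_left ?_
    · rcases hr with rfl | rfl
      exacts [Commute.one_left _, (F.Tt F.fT).symm]
    · rcases he with rfl | rfl
      exacts [Commute.one_left _, Commute.refl _]
  obtain ⟨r, d, e, hr, hd, da, he, rfl⟩ := nf F h ha hy ya
  refine ((Commute.mul_right ?_ ?_).mul_right ?_).eq
  · rcases hr with rfl | rfl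
    exacts [Commute.one_right _, xt]
  · rcases cenv F ha hd da with rfl | rfl | rfl | rfl
    exacts [Commute.one_right _, xz, xa', xz.mul_right xa']
  · rcases he with rfl | rfl
    exacts [Commute.one_right _, xf]

theorem abel2 (F : Lf G) (h : F.R2) {d x y : G} (hd : d ∈ F.D) (dd : d * d = 1) (d1 : d ≠ 1) (dz : d ≠ F.z)
    (hx : x ∈ F.T) (hy : y ∈ F.T) (xa : x * d = d * x) (ya : y * d = d * y) : x * y = y * x := by
  have k : ∀ {x a : G}, x ∈ F.T → x * (F.z * a) = F.z * a * x → x * a = a * x := fun {x a} hx e => by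
    rw [← mul_assoc, F.Tz hx, mul_assoc, mul_assoc] at e
    exact mul_left_cancel e
  rcases F.memD.1 hd with rfl | rfl | rfl | rfl | rfl | rfl | rfl | rfl
  · exact absurd rfl d1
  · exact absurd rfl dz
  · exact abel F h (Or.inl rfl) hx hy xa ya
  · exact abel F h (Or.inl rfl) hx hy (k hx xa) (k hy ya)
  · exact abel F h (Or.inr rfl) hx hy xa ya
  · exact abel F h (Or.inr rfl) hx hy (k hx xa) (k hy ya)
  · exact absurd (F.bs_cc.symm.trans dd) F.z1
  · exact absurd (F.bs_cc'.symm.trans dd) F.z1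

theorem core (c : Mc F A y1 y2) {v w y u : G} (hv : v = F.v1 ∨ v = F.v2) (wD : w ∈ F.D)
    (wv : w * v * w⁻¹ = F.z * v) (yt : y * F.t = F.t * y) (yz : y * F.z * y⁻¹ = v)
    (yv : y * v * y⁻¹ = F.z * v) (yu : y * u = u * y) (uT : u ∈ F.T) (uu : u * u = 1)
    (uD : ∀ d ∈ F.D, u * d = d * u) :
    closure ({F.t, F.z, v, u} : Set G) ⊓ A = closure ({F.z, v} : Set G) ∧
    ∀ g, g * F.t = F.t * g → g ∈ 𝐍(closure ({F.t, F.z, v, u} : Set G)) →
      g * u = u * g ∧ g ∈ 𝐍(closure ({F.z, v} : Set G)) := by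
  have vD : v ∈ F.D := by
    rcases hv with rfl | rfl
    exacts [F.v1D, F.v2D]
  have vv : v * v = 1 := by
    rcases hv with rfl | rfl
    exacts [F.v11, F.v22]
  have vT := F.DT vD
  have DA : ∀ {d}, d ∈ F.D → d ∈ A := fun hd => (c.TA _ (F.DT hd)).2 hd
  have vz : v * F.z = F.z * v := F.Tz vT
  have vt : v * F.t = F.t * v := F.Tt vT
  have zt : F.z * F.t = F.t * F.z := F.Tt F.zT
  have ut : u * F.t = F.t * u := F.Tt uT
  have uz : u * F.z = F.z * u := F.Tz uT
  have uv : u * v = v * u := uD v vD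
  have v1 : v ≠ 1 := yz ▸ cjne F.z1 y
  have nzv : F.z ≠ v := fun e => by
    rw [← e] at yz yv
    rw [yz, F.zz] at yv
    exact F.z1 yv
  have mt : F.t ∈ closure ({F.t, F.z, v, u} : Set G) := subset_closure (by simp)
  have mz : F.z ∈ closure ({F.t, F.z, v, u} : Set G) := subset_closure (by simp)
  have mv : v ∈ closure ({F.t, F.z, v, u} : Set G) := subset_closure (by simp)
  have mu : u ∈ closure ({F.t, F.z, v, u} : Set G) := subset_closure (by simp)
  have nz : F.z ∈ closure ({F.z, v} : Set G) := subset_closure (by simp)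
  have nv : v ∈ closure ({F.z, v} : Set G) := subset_closure (by simp)
  have WT : closure ({F.t, F.z, v, u} : Set G) ≤ F.T := (closure_le _).2 (by
    rintro _ (rfl | rfl | rfl | rfl)
    exacts [F.tT, F.zT, vT, uT])
  have Wv : ∀ {x}, x ∈ closure ({F.t, F.z, v, u} : Set G) → x * v = v * x := fun hx => cl (by
    rintro _ (rfl | rfl | rfl | rfl)
    exacts [vt.symm, vz.symm, rfl, uv]) hx
  have Wu : ∀ {x}, x ∈ closure ({F.t, F.z, v, u} : Set G) → x * u = u * x := fun hx => cl (by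
    rintro _ (rfl | rfl | rfl | rfl)
    exacts [ut.symm, uz.symm, uv.symm, rfl]) hx
  have A1 : ∀ x ∈ closure ({F.t, F.z, v, u} : Set G), x ∈ A → x = 1 ∨ x = F.z ∨ x = v ∨ x = F.z * v :=
    fun x hx xA => cenv F hv ((c.TA x (WT hx)).1 xA) (Wv hx)
  have l : closure ({F.z, v} : Set G) ≤ closure ({F.t, F.z, v, u} : Set G) ⊓ A := (closure_le _).2 (by
    rintro _ (rfl | rfl)
    exacts [⟨mz, DA F.zD⟩, ⟨mv, DA vD⟩])
  have inf : closure ({F.t, F.z, v, u} : Set G) ⊓ A = closure ({F.z, v} : Set G) := by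
    refine le_antisymm (fun x hx => ?_) l
    rcases A1 x hx.1 hx.2 with e | e | e | e <;> rw [e]
    exacts [one_mem _, nz, nv, mul_mem nz nv]
  have hW : IsPGroup 2 (closure ({F.t, F.z, v, u} : Set G)) := F.syl.isP.to_le WT
  -- 2-elements
  have k0 : ∀ g, P2 g → g * F.t = F.t * g → g ∈ 𝐍(closure ({F.t, F.z, v, u} : Set G)) →
      g * F.z = F.z * g → g * v = v * g → g * u = u * g := fun g g2 gt gN gz gv => by
    obtain ⟨h, hh, hle⟩ := F.syl.exists_cj_le (H25.A7.isP_sup hW g2 gN)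
      (sup_le (WT.trans F.syl.le) (zpowers_le.2 (mem_centralizer_singleton_iff.2 gt)))
    have hN := c.HN h (mem_centralizer_singleton_iff.1 hh)
    have m : ∀ {x}, x ∈ closure ({F.t, F.z, v, u} : Set G) → h * x * h⁻¹ ∈ F.T := fun hx =>
      hle (mem_cj'.2 ⟨_, mem_sup_left hx, rfl⟩)
    have mg : h * g * h⁻¹ ∈ F.T := hle (mem_cj'.2 ⟨_, mem_sup_right (mem_zpowers g), rfl⟩)
    have q : ∀ {s}, s ∈ closure ({F.t, F.z, v, u} : Set G) → s ∈ A → s * s = 1 → s ≠ 1 → h * s * h⁻¹ ≠ F.z →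
        Commute g s → g * u = u * g := fun {s} hs sA ss s1 sz gs =>
      (Commute.conj_iff h).1 (abel2 F c.r2 ((c.TA _ (m hs)).1 (conj_mem_of_mem_normalizer hN sA)) (cjsq ss h)
        (cjne s1 h) sz mg (m mu) (gs.conj h) (Commute.conj (Wu hs).symm h))
    by_cases e : h * F.z * h⁻¹ = F.z
    · refine q mv (DA vD) vv v1 (fun e' => nzv ?_) gv
      have := e.trans e'.symm
      exact mul_left_cancel (mul_right_cancel this)
    · exact q mz (DA F.zD) F.zz F.z1 e gz
  have k1 : ∀ g, g * F.t = F.t * g → g ∈ 𝐍(closure ({F.t, F.z, v, u} : Set G)) →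
      g * F.z = F.z * g → g * v = v * g → g * u = u * g := fun g gt gN gz gv => by
    have p : ∀ x ∈ closure ({F.t, F.z, v, u} : Set G), Commute g x ∨ Commute g (x * u) := fun x hx => by
      induction hx using closure_induction with
      | mem x hx =>
        rcases hx with rfl | rfl | rfl | rfl
        exacts [Or.inl gt, Or.inl gz, Or.inl gv, Or.inr (by rw [uu]; exact Commute.one_right _)]
      | one => exact Or.inl (Commute.one_right _)
      | mul x y hx hy h1 h2 =>
        rcases h1 with h1 | h1 <;> rcases h2 with h2 | h2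
        · exact Or.inl (h1.mul_right h2)
        · exact Or.inr (by rw [mul_assoc]; exact h1.mul_right h2)
        · exact Or.inr (by rw [mul_assoc, Wu hy, ← mul_assoc]; exact h1.mul_right h2)
        · have := h1.mul_right h2
          rw [Wu hy, mul_assoc, ← mul_assoc u, uu, one_mul] at this
          exact Or.inl this
      | inv x hx h1 =>
        rcases h1 with h1 | h1
        · exact Or.inl h1.inv_right
        · have := h1.inv_right
          rw [Wu hx, mul_inv_rev, inv_eq_of_mul_eq_one_left uu] at this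
          exact Or.inr this
    have mu' := conj_mem_of_mem_normalizer gN mu
    rcases p _ mu' with e | e
    · have : g * (g * u * g⁻¹) = g * u := by rw [e.eq]; group
      exact mul_inv_eq_iff_eq_mul.1 (mul_left_cancel this)
    · have g2 : Commute (g * g) u := by
        apply mul_inv_eq_iff_eq_mul.1
        calc g * g * u * (g * g)⁻¹ = g * (g * u * g⁻¹ * u) * (u⁻¹ * g⁻¹) := by group
          _ = g * u * g⁻¹ * (u * (g * u * g⁻¹)) := by rw [e.eq, inv_eq_of_mul_eq_one_left uu]; group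
          _ = u := by rw [← Wu mu', ← mul_assoc, cjsq uu, one_mul]
      obtain ⟨m, ⟨j, rfl⟩, hm⟩ := exists_odd_P2 g
      have e1 : Commute (g ^ (2 * j + 1)) u := k0 _ hm ((show Commute g F.t from gt).pow_left _) (pow_mem gN _)
        ((show Commute g F.z from gz).pow_left _) ((show Commute g v from gv).pow_left _)
      have e2 := (g2.pow_left j).inv_left.mul_left e1
      rw [pow_succ, pow_mul, pow_two, inv_mul_cancel_left] at e2
      exact e2
  have red : ∀ {n g : G}, n * u = u * n → n * g * u = u * (n * g) → g * u = u * g := fun {n g} h1 h2 => by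
    have := (show Commute n u from h1).inv_left.mul_left h2
    rwa [inv_mul_cancel_left] at this
  have wT := F.DT wD
  have wz : w * F.z * w⁻¹ = F.z := mul_inv_eq_iff_eq_mul.2 (F.Tz wT)
  have wN : w ∈ 𝐍(closure ({F.t, F.z, v, u} : Set G)) := nrm (by
    rintro _ (rfl | rfl | rfl | rfl)
    · rw [F.Tt wT, mul_inv_cancel_right]; exact mt
    · rw [wz]; exact mz
    · rw [wv]; exact mul_mem mz mv
    · rw [← uD w wD, mul_inv_cancel_right]; exact mu)
  have yN : y ∈ 𝐍(closure ({F.t, F.z, v, u} : Set G)) := nrm (by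
    rintro _ (rfl | rfl | rfl | rfl)
    · rw [yt, mul_inv_cancel_right]; exact mt
    · rw [yz]; exact mv
    · rw [yv]; exact mul_mem mz mv
    · rw [yu, mul_inv_cancel_right]; exact mu)
  have k2 : ∀ g, g * F.t = F.t * g → g ∈ 𝐍(closure ({F.t, F.z, v, u} : Set G)) →
      g * F.z * g⁻¹ = F.z → g * u = u * g := fun g gt gN gz => by
    rcases A1 _ (conj_mem_of_mem_normalizer gN mv) (conj_mem_of_mem_normalizer (c.HN g gt) (DA vD)) with
      e | e | e | e
    · exact absurd e (cjne v1 g)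
    · exact absurd (mul_left_cancel (mul_right_cancel (gz.trans e.symm))) nzv
    · exact k1 g gt gN (mul_inv_eq_iff_eq_mul.1 gz) (mul_inv_eq_iff_eq_mul.1 e)
    · refine red (uD w wD).symm (k1 (w * g) (Commute.mul_left (F.Tt wT) gt) (mul_mem wN gN)
        (mul_inv_eq_iff_eq_mul.1 ?_) (mul_inv_eq_iff_eq_mul.1 ?_))
      · calc _ = w * (g * F.z * g⁻¹) * w⁻¹ := by group
          _ = _ := by rw [gz, wz]
      · calc _ = w * (g * v * g⁻¹) * w⁻¹ := by group
          _ = _ := by rw [e, ← conj_mul, wz, wv, F.bs_zz]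
  refine ⟨inf, fun g gt gN => ⟨?_, ?_⟩⟩
  · rcases A1 _ (conj_mem_of_mem_normalizer gN mz) (conj_mem_of_mem_normalizer (c.HN g gt) (DA F.zD)) with
      e | e | e | e
    · exact absurd e (cjne F.z1 g)
    · exact k2 g gt gN e
    · refine red (show Commute y u from yu).inv_left (k2 (y⁻¹ * g)
        (Commute.mul_left (show Commute y F.t from yt).inv_left gt) (mul_mem (inv_mem yN) gN) ?_)
      calc _ = y⁻¹ * (g * F.z * g⁻¹) * y := by group
        _ = _ := by rw [e, ← yz]; group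
    · refine red yu (k2 (y * g) (Commute.mul_left yt gt) (mul_mem yN gN) ?_)
      calc _ = y * (g * F.z * g⁻¹) * y⁻¹ := by group
        _ = _ := by rw [e, ← conj_mul, yz, yv, ← mul_assoc, vz, mul_assoc, vv, mul_one]
  · refine mem_normalizer_of_cj_le fun x hx => ?_
    obtain ⟨s, hs, rfl⟩ := mem_cj'.1 hx
    rw [← inf]
    exact ⟨conj_mem_of_mem_normalizer gN (l hs).1, conj_mem_of_mem_normalizer (c.HN g gt) (l hs).2⟩

theorem c1 (c : Mc F A y1 y2) (ff : F.f * F.f = 1) :
    closure ({F.t, F.z, F.v1, F.f} : Set G) ⊓ A = closure ({F.z, F.v1} : Set G) ∧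
    ∀ g, g * F.t = F.t * g → g ∈ 𝐍(closure ({F.t, F.z, F.v1, F.f} : Set G)) →
      g * F.f = F.f * g ∧ g ∈ 𝐍(closure ({F.z, F.v1} : Set G)) :=
  core c (Or.inl rfl) F.v2D (by rw [F.v21]; group) (c.AH _ c.y1A) c.y1z c.y1v c.y1f F.fT ff
    fun _ hd => F.fD hd

theorem c2 (c : Mc F A y1 y2) (f1 : F.f ≠ 1) (ff : F.f * F.f = 1) :
    closure ({F.t, F.z, F.v2, F.z * F.f} : Set G) ⊓ A = closure ({F.z, F.v2} : Set G) ∧
    ∀ g, g * F.t = F.t * g → g ∈ 𝐍(closure ({F.t, F.z, F.v2, F.z * F.f} : Set G)) →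
      g * (F.z * F.f) = F.z * F.f * g ∧ g ∈ 𝐍(closure ({F.z, F.v2} : Set G)) :=
  core c (Or.inr rfl) F.v1D (by rw [mul_inv_eq_iff_eq_mul, mul_assoc, F.v21, F.bs_zz]) (c.AH _ c.y2A) c.y2z
    c.y2v (c.y2f f1) (mul_mem F.zT F.fT)
    (by rw [mul_assoc, ← mul_assoc F.f, F.Tz F.fT, mul_assoc, F.bs_zz, ff])
    fun _ hd => (Commute.mul_left (F.Tz (F.DT hd)).symm (F.fD hd)).eq

end FB1H

theorem Mc.inf1 (c : Mc F A y1 y2) (f1 : F.f ≠ 1) (ff : F.f * F.f = 1) :
    closure ({F.t, F.z, F.v1, F.f} : Set G) ⊓ A = closure ({F.z, F.v1} : Set G) :=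
  (FB1H.c1 c ff).1

theorem Mc.inf2 (c : Mc F A y1 y2) (f1 : F.f ≠ 1) (ff : F.f * F.f = 1) :
    closure ({F.t, F.z, F.v2, F.z * F.f} : Set G) ⊓ A = closure ({F.z, F.v2} : Set G) :=
  (FB1H.c2 c f1 ff).1

theorem Mc.nW1 (c : Mc F A y1 y2) (f1 : F.f ≠ 1) (ff : F.f * F.f = 1) (g : G) (gt : g * F.t = F.t * g)
    (hg : g ∈ 𝐍(closure ({F.t, F.z, F.v1, F.f} : Set G))) :
    g * F.f = F.f * g ∧ g ∈ 𝐍(closure ({F.z, F.v1} : Set G)) :=
  (FB1H.c1 c ff).2 g gt hg

theorem Mc.nW2 (c : Mc F A y1 y2) (f1 : F.f ≠ 1) (ff : F.f * F.f = 1) (g : G) (gt : g * F.t = F.t * g)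
    (hg : g ∈ 𝐍(closure ({F.t, F.z, F.v2, F.z * F.f} : Set G))) :
    g * (F.z * F.f) = F.z * F.f * g ∧ g ∈ 𝐍(closure ({F.z, F.v2} : Set G)) :=
  (FB1H.c2 c f1 ff).2 g gt hg

end H60M.MC
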