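import Mathlib
import Cfsg.Agent.Lib.M37.Defs
import Cfsg.Agent.Lib.A6C.Bas

/-! The two classes of four-groups. -/

set_option autoImplicit false

namespace H60M.MC

open Subgroup H69 H36.SW H80.A6C

variable {G : Type*} [Group G] [Finite G] {F : Lf G} {A E : Subgroup G} {y1 y2 : G}

namespace FB2H

theorem mz {z v : G} : z ∈ closure ({z, v} : Set G) := subset_closure (Or.inl rfl)
theorem mv {z v : G} : v ∈ closure ({z, v} : Set G) := subset_closure (Or.inr rfl)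

theorem cle {z v : G} {K : Subgroup G} (h1 : z ∈ K) (h2 : v ∈ K) : closure ({z, v} : Set G) ≤ K :=
  (closure_le K).2 (by rintro _ (rfl | rfl) <;> assumption)

theorem cjle {z v g : G} {K : Subgroup G} (h1 : g * z * g⁻¹ ∈ K) (h2 : g * v * g⁻¹ ∈ K) :
    closure ({z, v} : Set G) ^ᶜ g ≤ K :=
  cj_le_iff.2 (cle (mem_cj.2 (by rwa [inv_inv])) (mem_cj.2 (by rwa [inv_inv])))

theorem el {z v : G} (zz : z * z = 1) (vv : v * v = 1) (c : z * v = v * z) {x : G}
    (hx : x ∈ closure ({z, v} : Set G)) : x * x = 1 ∧ x * z = z * x ∧ x * v = v * x := by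
  induction hx using closure_induction with
  | mem x h =>
    rcases h with rfl | rfl
    exacts [⟨zz, rfl, c⟩, ⟨vv, c.symm, rfl⟩]
  | one => simp
  | mul x y hx hy ih ih' =>
    have : y * x = x * y := by
      refine (cle (K := centralizer {x}) ?_ ?_ hy : y ∈ centralizer {x}) x rfl |>.symm
      · exact mem_centralizer_singleton_iff.2 ih.2.1.symm
      · exact mem_centralizer_singleton_iff.2 ih.2.2.symm
    refine ⟨?_, ?_, ?_⟩
    · rw [mul_assoc, ← mul_assoc y, this, mul_assoc, ih'.1, mul_one, ih.1]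
    · rw [mul_assoc, ih'.2.1, ← mul_assoc, ih.2.1, mul_assoc]
    · rw [mul_assoc, ih'.2.2, ← mul_assoc, ih.2.2, mul_assoc]
  | inv x _ ih => rwa [inv_eq_of_mul_eq_one_right ih.1]

theorem card4 {z v : G} (zz : z * z = 1) (vv : v * v = 1) (c : z * v = v * z) (v1 : v ≠ 1) (vz : v ≠ z) :
    Nat.card (closure ({z, v} : Set G)) = 2 * Nat.card (zpowers z) := by
  rw [← H25.A7.card_adj (P := zpowers z) (x := v) _ (vv ▸ one_mem _)]
  · rw [Set.insert_eq, Subgroup.closure_union, ← zpowers_eq_closure, ← zpowers_eq_closure]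
  · exact fun h => ((mem_zp zz).1 h).elim v1 vz
  · rw [← cj_eq_self_iff, cj_zpowers, ← c, mul_inv_cancel_right]

theorem nc : F.v1 * F.v2 ≠ F.v2 * F.v1 := fun e => F.z1 (by
  rw [← F.hz, mul_assoc F.v1, ← e, ← mul_assoc, F.v11, one_mul, F.v22])

theorem card12 : Nat.card (closure ({F.z, F.v1} : Set G)) = Nat.card (closure ({F.z, F.v2} : Set G)) := by
  rw [card4 F.zz F.v11 F.zv1 (fun e => nc (F := F) (by rw [e, one_mul, mul_one]))
      (fun e => nc (F := F) (by rw [e, F.zv2])),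
    card4 F.zz F.v22 F.zv2 (fun e => nc (F := F) (by rw [e, one_mul, mul_one]))
      (fun e => nc (F := F) (by rw [e, F.zv1]))]

theorem ne12 : (closure ({F.z, F.v1} : Set G)) ≠ (closure ({F.z, F.v2} : Set G)) := fun e => nc (el F.zz F.v22 F.zv2 (e ▸ mv : F.v1 ∈ (closure ({F.z, F.v2} : Set G)))).2.2

theorem four {W : Subgroup G} (h : W ≤ F.D) (e : ∀ x ∈ W, x * x = 1) (c : Nat.card W = Nat.card (closure ({F.z, F.v1} : Set G))) :
    W = (closure ({F.z, F.v1} : Set G)) ∨ W = (closure ({F.z, F.v2} : Set G)) := by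
  have k : ∀ x ∈ W, x ∈ (closure ({F.z, F.v1} : Set G)) ∨ x ∈ (closure ({F.z, F.v2} : Set G)) := fun x hx => by
    have := e x hx
    rcases F.memD.1 (h hx) with rfl | rfl | rfl | rfl | rfl | rfl | rfl | rfl
    exacts [Or.inl (one_mem _), Or.inl mz, Or.inl mv, Or.inl (mul_mem mz mv), Or.inr mv, Or.inr (mul_mem mz mv),
      absurd (F.bs_cc.symm.trans this) F.z1, absurd (F.bs_cc'.symm.trans this) F.z1]
  by_cases l : W ≤ (closure ({F.z, F.v1} : Set G))
  · exact Or.inl (eq_of_le_of_card_ge l c.ge)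
  · obtain ⟨a, ha, a1⟩ := SetLike.not_le_iff_exists.1 l
    refine Or.inr (eq_of_le_of_card_ge (fun b hb => ?_) (c.trans card12).ge)
    rcases k b hb with b1 | b1
    · exact (mul_mem_cancel_left ((k a ha).resolve_left a1)).1
        ((k _ (mul_mem ha hb)).resolve_left fun d => a1 ((mul_mem_cancel_right b1).1 d))
    · exact b1

theorem four' {z v g : G} (zz : z * z = 1) (vv : v * v = 1) (c : z * v = v * z)
    (k : Nat.card (closure ({z, v} : Set G)) = Nat.card (closure ({F.z, F.v1} : Set G))) (h : closure ({z, v} : Set G) ^ᶜ g ≤ F.D) :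
    closure ({z, v} : Set G) ^ᶜ g = (closure ({F.z, F.v1} : Set G)) ∨ closure ({z, v} : Set G) ^ᶜ g = (closure ({F.z, F.v2} : Set G)) := by
  refine four h (fun x hx => ?_) (by rw [card_cj, k])
  obtain ⟨a, ha, rfl⟩ := mem_cj'.1 hx
  exact cjsq (el zz vv c ha).1 g

theorem nrm {z v x : G} (h1 : x * z = z * x) (h2 : x * v = v * x ∨ x * v = z * (v * x)) :
    x ∈ 𝐍(closure ({z, v} : Set G)) := by
  refine mem_normalizer_of_cj_le (cjle (by rw [h1, mul_inv_cancel_right]; exact mz) ?_)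
  rcases h2 with e | e <;> rw [e]
  · rw [mul_inv_cancel_right]
    exact mv
  · rw [← mul_assoc, mul_inv_cancel_right]
    exact mul_mem mz mv

theorem n1 : F.T0 ≤ 𝐍((closure ({F.z, F.v1} : Set G))) := by
  refine sup_le (fun r hr => nrm (F.Tz (F.RT hr)) (Or.inl (F.Rv1 r hr))) ((closure_le _).2 ?_)
  rintro _ (rfl | rfl | rfl)
  exacts [nrm (F.Tz F.v1T) (F.act1 F.v1D), nrm (F.Tz F.v2T) (F.act1 F.v2D), nrm (F.Tz F.fT) (Or.inl F.fv1)]

theorem n2 : F.T0 ≤ 𝐍((closure ({F.z, F.v2} : Set G))) := by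
  refine sup_le (fun r hr => nrm (F.Tz (F.RT hr)) (Or.inl (F.Rv2 r hr))) ((closure_le _).2 ?_)
  rintro _ (rfl | rfl | rfl)
  exacts [nrm (F.Tz F.v1T) (F.act2 F.v1D), nrm (F.Tz F.v2T) (F.act2 F.v2D), nrm (F.Tz F.fT) (Or.inl F.fv2)]

theorem key {K P : Subgroup G} (hP : IsSylowIn 2 P K) (h0 : P ≤ F.T0) (hD : ∀ n ∈ K, n ∈ 𝐍(P) → n ∈ 𝐍(F.D))
    {g : G} (hg : g ∈ K) : (closure ({F.z, F.v1} : Set G)) ^ᶜ g ≠ (closure ({F.z, F.v2} : Set G)) := by
  intro e
  have s1 : IsSylowIn 2 P (K ⊓ 𝐍((closure ({F.z, F.v2} : Set G)))) := hP.mono (le_inf hP.le (h0.trans n2)) inf_le_left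
  have s2 : IsSylowIn 2 (P ^ᶜ g) (K ⊓ 𝐍((closure ({F.z, F.v2} : Set G)))) := (hP.cj_of_mem hg).mono (le_inf (cj_le_of_mem hP.le hg)
    (by rw [← e, ← cj_normalizer]; exact cj_mono g (h0.trans n1))) inf_le_left
  obtain ⟨n, hn, en⟩ := s2.conj s1
  rw [cj_cj, cj_eq_self_iff] at en
  have mK := mul_mem hn.1 hg
  have e1 : (closure ({F.z, F.v1} : Set G)) ^ᶜ (n * g) = (closure ({F.z, F.v2} : Set G)) := by rw [← cj_cj, e, cj_eq_of_mem_normalizer hn.2]
  generalize n * g = m at en mK e1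
  have e2 : (closure ({F.z, F.v2} : Set G)) ^ᶜ m = (closure ({F.z, F.v1} : Set G)) := (four' F.zz F.v22 F.zv2 card12.symm (cj_le_of_mem_normalizer (cle F.zD F.v2D)
    (hD m mK en))).resolve_right fun d => ne12 (cj_inj.1 (e1.trans d.symm))
  have mm : m ^ 2 ∈ 𝐍((closure ({F.z, F.v1} : Set G))) := by rw [← cj_eq_self_iff, sq, ← cj_cj, e1, e2]
  obtain ⟨_, ⟨j, rfl⟩, p⟩ := exists_odd_P2 m
  have := n1 (h0 (H25.A7.mem_of_P2_norm hP (pow_mem mK _) p (pow_mem en _)))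
  rw [pow_succ, pow_mul, mul_mem_cancel_left (pow_mem mm j)] at this
  exact ne12 ((cj_eq_of_mem_normalizer this).symm.trans e1)

theorem eTA (c : Mc F A y1 y2) : F.T ⊓ A = F.D :=
  le_antisymm (fun x hx => (c.TA x hx.1).1 hx.2) fun x hx => ⟨F.DT hx, (c.TA x (F.DT hx)).2 hx⟩

theorem sylD (c : Mc F A y1 y2) : IsSylowIn 2 F.D A :=
  eTA c ▸ F.syl.inf_normal (fun a ha => mem_centralizer_singleton_iff.2 (c.AH a ha))
    fun g hg => c.HN g (mem_centralizer_singleton_iff.1 hg)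

end FB2H

open FB2H

theorem Mc.V12 (c : Mc F A y1 y2) (h0 : ∀ x ∈ F.T, x ∈ F.T0) (g : G) (gt : g * F.t = F.t * g) :
    closure ({F.z, F.v1} : Set G) ^ᶜ g ≠ closure ({F.z, F.v2} : Set G) := by
  refine key F.syl h0 (fun n hn k => ?_) (mem_centralizer_singleton_iff.2 gt)
  rw [← eTA c, ← cj_eq_self_iff, cj_inf, cj_eq_of_mem_normalizer k,
    cj_eq_of_mem_normalizer (c.HN n (mem_centralizer_singleton_iff.1 hn))]

theorem Mc.nd (c : Mc F A y1 y2) {s : G} (sT : s ∈ F.T) (s0 : s ∉ F.T0) (g : G) (gt : g * F.t = F.t * g) :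
    g * s * g⁻¹ ∉ F.T0 := by
  intro h
  have N := fun a ha => key (F := F) (sylD c) F.D0 (fun _ _ k => k) (g := a) ha
  have sz : s * F.z * s⁻¹ = F.z := by rw [F.Tz sT, mul_inv_cancel_right]
  have e1 : closure ({F.z, F.v1} : Set G) ^ᶜ s = closure ({F.z, F.v2} : Set G) := by
    refine eq_of_le_of_card_ge (cjle (sz.symm ▸ mz) ?_) (by rw [card_cj, card12])
    rcases F.sw1 s sT s0 with e | e <;> rw [e]
    exacts [mv, mul_mem mz mv]
  have e2 : closure ({F.z, F.v2} : Set G) ^ᶜ s = closure ({F.z, F.v1} : Set G) := by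
    refine eq_of_le_of_card_ge (cjle (sz.symm ▸ mz) ?_) (by rw [card_cj, card12])
    rcases F.sw2 s sT s0 with e | e <;> rw [e]
    exacts [mv, mul_mem mz mv]
  have VD : closure ({F.z, F.v1} : Set G) ≤ F.D := cle F.zD F.v1D
  obtain ⟨a, ha, le⟩ := (sylD c).exists_cj_le (isPGroup_cj ((sylD c).isP.to_le VD) g⁻¹)
    (cj_le_of_mem_normalizer (VD.trans (sylD c).le) (inv_mem (c.HN g gt)))
  rw [cj_cj] at le
  have aA : a * (s * a⁻¹ * s⁻¹) ∈ A := mul_mem ha (conj_mem_of_mem_normalizer (c.HN s (F.Tt sT)) (inv_mem ha))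
  have k : ((closure ({F.z, F.v1} : Set G) ^ᶜ (a * g⁻¹)) ^ᶜ s) ^ᶜ (a * (s * a⁻¹ * s⁻¹)) =
      closure ({F.z, F.v1} : Set G) ^ᶜ (a * g⁻¹) := by
    conv_rhs => rw [← cj_eq_of_mem_normalizer (n1 h)]
    rw [cj_cj, cj_cj, cj_cj]
    congr 1
    group
  rcases four' F.zz F.v11 F.zv1 rfl le with e | e <;> rw [e] at k
  · rw [e1, cj_eq_iff] at k
    exact N _ (inv_mem aA) k.symm
  · rw [e2] at k
    exact N _ aA k

end H60M.MC
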