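import Mathlib
import Cfsg.Agent.Lib.M37.FB1
import Cfsg.Agent.Lib.M37.FB2
import Cfsg.Agent.Lib.B6S.Defs

/-! The abstract frame. -/

set_option autoImplicit false

namespace H60M.MC

open Subgroup H69 H36.SW H80.A6C

variable {G : Type*} [Group G] [Finite G] {F : Lf G} {A E : Subgroup G} {y1 y2 : G}

namespace FBH

theorem f_not (F : Lf G) (f1 : F.f ≠ 1) : F.f ∉ F.R ⊔ F.D := fun k => by
  obtain ⟨hR, hz⟩ := F.hf.resolve_left f1
  obtain ⟨r, hr, d, hd, e⟩ := F.bs_mem.1 k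
  have e' : d = r⁻¹ * F.f := by rw [e, inv_mul_cancel_left]
  have c1 : d * F.v1 = F.v1 * d := by
    rw [e']; exact Commute.mul_left (F.Rv1 _ (inv_mem hr)) F.fv1
  have c2 : d * F.v2 = F.v2 * d := by
    rw [e']; exact Commute.mul_left (F.Rv2 _ (inv_mem hr)) F.fv2
  rcases F.cenD hd c1 c2 with k | k
  · rw [k, mul_one] at e; exact hR (e ▸ hr)
  · rw [k, F.RD hr F.zD] at e
    rw [e, F.bs_zz] at hz; exact hz hr

theorem le_RD (F : Lf G) : closure ({F.t, F.v1, F.v2} : Set G) ≤ F.R ⊔ F.D := (closure_le _).2 (by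
  rintro _ (rfl | rfl | rfl)
  exacts [mem_sup_left F.tR, mem_sup_right F.v1D, mem_sup_right F.v2D])

theorem t_not (F : Lf G) (f1 : F.f ≠ 1) (ff : F.f * F.f = 1) :
    F.t ∉ closure ({F.v1, F.v2, F.f, F.z * F.f} : Set G) := fun k => by
  have l : closure ({F.v1, F.v2, F.f, F.z * F.f} : Set G) ≤ F.D ⊔ zpowers F.f := (closure_le _).2 (by
    rintro _ (rfl | rfl | rfl | rfl)
    · exact mem_sup_left F.v1D
    · exact mem_sup_left F.v2D
    · exact mem_sup_right (mem_zpowers _)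
    · exact mul_mem_sup F.zD (mem_zpowers _))
  rcases (H25.A7.mem_adj (P := F.D) (F.Dn F.fT) (ff ▸ one_mem F.D)).1 (l k) with e | e
  · exact F.tD e
  · refine f_not F f1 ?_
    have : F.f = (F.t * F.f⁻¹)⁻¹ * F.t := by group
    rw [this]
    exact mul_mem (mem_sup_right (inv_mem e)) (mem_sup_left F.tR)

end FBH

theorem Mc.fr (c : Mc F A y1 y2) (g : Gt E F.t) (AE : A ≤ E) (f1 : F.f ≠ 1) (ff : F.f * F.f = 1) {τ : G}
    (hτ : (τ = 1 ∧ ∀ x ∈ F.T, x ∈ F.T0) ∨ (F.Dl τ ∧ τ * F.f * τ⁻¹ = F.z * F.f)) :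
    ∃ F' : H60M.A6.Fr G, F'.E = E ∧ F'.t = F.t ∧ F'.dl = τ := by
  have R2 : ∀ r ∈ F.R, r = 1 ∨ r = F.t := c.r2
  have v1A : F.v1 ∈ A := (c.TA _ F.v1T).2 F.v1D
  have v2A : F.v2 ∈ A := (c.TA _ F.v2T).2 F.v2D
  have ut := F.Tt F.fT
  have wT := mul_mem F.zT F.fT
  have wt := F.Tt wT
  have uz := F.Tz F.fT
  have ww : F.z * F.f * (F.z * F.f) = 1 := by rw [mul_assoc, ← mul_assoc F.f, uz, mul_assoc, ff, mul_one, F.zz]
  have τT : τ ∈ F.T := hτ.elim (fun k => k.1 ▸ one_mem _) fun k => k.1.τT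
  have T0 : closure ({F.t, F.v1, F.v2, F.f, F.z * F.f} : Set G) = F.T0 := by
    refine le_antisymm ((closure_le _).2 ?_) (sup_le (fun r hr => ?_) (closure_mono ?_))
    · rintro _ (rfl | rfl | rfl | rfl | rfl)
      exacts [F.R0 F.tR, F.D0 F.v1D, F.D0 F.v2D, F.f0, mul_mem (F.D0 F.zD) F.f0]
    · rcases R2 r hr with rfl | rfl
      exacts [one_mem _, subset_closure (by simp)]
    · rintro _ (rfl | rfl | rfl) <;> simp
  have T1 : closure ({F.t, F.v1, F.v2, F.f, F.z * F.f, τ} : Set G) = F.T := by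
    have l : F.T0 ≤ closure ({F.t, F.v1, F.v2, F.f, F.z * F.f, τ} : Set G) :=
      T0 ▸ closure_mono (by rintro _ (rfl | rfl | rfl | rfl | rfl) <;> simp)
    refine le_antisymm ((closure_le _).2 ?_) fun x hx => ?_
    · rintro _ (rfl | rfl | rfl | rfl | rfl | rfl)
      exacts [F.tT, F.v1T, F.v2T, F.fT, wT, τT]
    · rcases hτ with k | k
      · exact l (k.2 x hx)
      · rcases F.memT τT k.1.τ0 hx with e | ⟨y, hy, rfl⟩
        exacts [l e, mul_mem (subset_closure (by simp)) (l hy)]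
  have w1 : F.z * F.f * F.v1 = F.v1 * (F.z * F.f) := Commute.mul_left F.zv1 F.fv1
  have w2 : F.z * F.f * F.v2 = F.v2 * (F.z * F.f) := Commute.mul_left F.zv2 F.fv2
  have nf := FBH.f_not F f1
  refine ⟨{
    E := E, t := F.t, z := F.z, v1 := F.v1, v2 := F.v2, u1 := F.f, u2 := F.z * F.f, y1 := y1
    y2 := y2, dl := τ
    En := g.En, Es := g.Es, top := g.top, v1E := AE v1A, v2E := AE v2A, y1E := AE c.y1A
    y2E := AE c.y2A, tt := F.tt, zz := F.zz, v11 := F.v11, v22 := F.v22, u11 := ff, u22 := ww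
    hz := F.hz, hz' := F.hz', z1 := F.z1
    tv1 := (F.Tt F.v1T).symm, tv2 := (F.Tt F.v2T).symm, tu1 := ut.symm, tu2 := wt.symm
    u1v1 := F.fv1, u1v2 := F.fv2, u2v1 := w1, u2v2 := w2
    tD := FBH.t_not F f1 ff
    hu := .inr ⟨rfl, (F.bs_zz _).symm, fun k => nf (FBH.le_RD F k), fun k =>
      nf ((mul_mem_cancel_left (mem_sup_right F.zD)).1 (FBH.le_RD F k))⟩
    hu1 := f1, dlt := F.Tt τT
    hdl := hτ.imp And.left fun k => ⟨k.1.τ1, k.1.τ2, k.2, ?_, R2 _ k.1.ττ⟩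
    syl := T1 ▸ F.syl
    y13 := c.y1o, y23 := c.y2o
    y1t := c.AH _ c.y1A, y2t := c.AH _ c.y2A
    y1u := c.y1f, y2u := c.y2f f1
    y1z := c.y1z, y2z := c.y2z, y1v := c.y1v, y2v := c.y2v, v2y := c.v2y, v1y := c.v1y
    nW1 := c.nW1 f1 ff, nW2 := c.nW2 f1 ff, W12 := fun hd x xt e => ?_
    nd := fun hd x xt y hy k => ?_
    zs := g.zs }, rfl, rfl, rfl⟩
  · rw [← conj_mul, k.2, F.Tz τT, mul_inv_cancel_right, F.bs_zz]
  · have hT := (hτ.resolve_right fun k => k.1.τ0 (hd ▸ one_mem _)).2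
    refine c.V12 hT x xt ?_
    rw [← c.inf1 f1 ff, ← c.inf2 f1 ff, ← e, cj_inf, cj_eq_of_mem_normalizer (c.HN x xt)]
  · have d := (hτ.resolve_left fun k => hd k.1).1
    rw [T0] at hy k
    exact c.nd (mul_mem τT (F.T0T hy)) (fun m => d.τ0 ((mul_mem_cancel_right hy).1 m)) x xt k

end H60M.MC
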