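import Mathlib
import Cfsg.Agent.Lib.M37.Bas
import Cfsg.Agent.Lib.A6C.Bas

/-! The elements of odd order. -/

set_option autoImplicit false

namespace H60M.MC

open Subgroup H69 H36.SW H80.A6C

variable {Q : Type*} [Group Q] [Finite Q] {G : Type*} [Group G] [Finite G]
variable {t : G} {π : G → Q} {L : Subgroup Q} {z v1 v2 y1 y2 : Q}

namespace FYH

theorem gen (h : Hy t π L) {T : Subgroup G} (hT : IsPGroup 2 T) (hc : T ≤ centralizer {t})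
    {Z V U W : G} (ZT : Z ∈ T) (VT : V ∈ T) (UT : U ∈ T) (WT : W ∈ T) (WW : W * W = 1)
    (WZ : W * Z * W⁻¹ = Z) (WV : W * V * W⁻¹ = Z * V) (WU : W * U * W⁻¹ = U)
    {y : Q} (yL : y ∈ L) (y3 : y ^ 3 = 1) (yz : y * π Z * y⁻¹ = π V)
    (yv : y * π V * y⁻¹ = π Z * π V) (yu : y * π U * y⁻¹ = π U) (wy : π W * y * π W = y⁻¹) :
    ∃ Y, Y * t = t * Y ∧ π Y = y ∧ Odd (orderOf Y) ∧ Y * Z * Y⁻¹ = V ∧ Y * V * Y⁻¹ = Z * V ∧
      W * Y * W = Y⁻¹ ∧ Y * U = U * Y := by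
  have ct : ∀ {x}, x ∈ T → x * t = t * x := fun hx => mem_centralizer_singleton_iff.1 (hc hx)
  have hK : closure ({Z, V, U} : Set G) ≤ T := by
    rw [closure_le]
    rintro x (rfl | rfl | rfl) <;> assumption
  have ZK : Z ∈ closure ({Z, V, U} : Set G) := subset_closure (by simp)
  have VK : V ∈ closure ({Z, V, U} : Set G) := subset_closure (by simp)
  have UK : U ∈ closure ({Z, V, U} : Set G) := subset_closure (by simp)
  have Wi : W⁻¹ = W := inv_eq_of_mul_eq_one_right WW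
  have WK : ∀ x ∈ closure ({Z, V, U} : Set G), W * x * W⁻¹ ∈ closure ({Z, V, U} : Set G) := by
    intro x hx
    induction hx using closure_induction with
    | mem x hx =>
      rcases hx with rfl | rfl | rfl
      · rwa [WZ]
      · rw [WV]; exact mul_mem ZK VK
      · rwa [WU]
    | one => rw [mul_one, mul_inv_cancel]; exact one_mem _
    | mul x y _ _ hx hy => rw [← conj_mul]; exact mul_mem hx hy
    | inv x _ hx => rw [← conj_inv]; exact inv_mem hx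
  have WN : W ∈ 𝐍(closure ({Z, V, U} : Set G)) := mem_normalizer_iff.2 fun x => ⟨WK x, fun hx => by
    have := WK _ hx
    rwa [Wi, show W * (W * x * W) * W = W * W * x * (W * W) by group, WW, one_mul, mul_one] at this⟩
  obtain ⟨a, ca, pa⟩ := h.sur y yL
  obtain ⟨n, cn, nN, pn⟩ := h.lift (hT.to_le hK) (hK.trans hc) ca fun w hw => by
    rw [pa]
    induction hw using closure_induction with
    | mem x hx =>
      rcases hx with rfl | rfl | rfl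
      · exact ⟨V, VK, yz.symm⟩
      · exact ⟨Z * x, mul_mem ZK VK, by rw [yv, h.mul _ _ (ct ZT) (ct VT)]⟩
      · exact ⟨x, UK, yu.symm⟩
    | one => exact ⟨1, one_mem _, by rw [h.one, mul_one, mul_inv_cancel]⟩
    | mul x x' hx hx' ix ix' =>
      obtain ⟨u, hu, eu⟩ := ix
      obtain ⟨u', hu', eu'⟩ := ix'
      exact ⟨u * u', mul_mem hu hu', by
        rw [h.mul _ _ (ct (hK hu)) (ct (hK hu')), eu, eu', h.mul _ _ (ct (hK hx)) (ct (hK hx')),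
          conj_mul]⟩
    | inv x hx ix =>
      obtain ⟨u, hu, eu⟩ := ix
      exact ⟨u⁻¹, inv_mem hu, by rw [h.inv (ct (hK hu)), eu, h.inv (ct (hK hx)), conj_inv]⟩
  rw [pa] at pn
  have c1 : n⁻¹ * W * t = t * (n⁻¹ * W) := Hy.cmul (Hy.cinv cn) (ct WT)
  have c2 : n⁻¹ * W * n * t = t * (n⁻¹ * W * n) := Hy.cmul c1 cn
  have cY : n⁻¹ * W * n * W * t = t * (n⁻¹ * W * n * W) := Hy.cmul c2 (ct WT)
  have pY : π (n⁻¹ * W * n * W) = y := by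
    rw [h.mul _ _ c2 (ct WT), h.mul _ _ c1 cn, h.mul _ _ (Hy.cinv cn) (ct WT), h.inv cn, pn]
    calc y⁻¹ * π W * y * π W = y⁻¹ * (π W * y * π W) := by group
      _ = y * (y ^ 3)⁻¹ := by rw [wy]; group
      _ = y := by rw [y3, inv_one, mul_one]
  have YN : n⁻¹ * W * n * W ∈ 𝐍(closure ({Z, V, U} : Set G)) :=
    mul_mem (mul_mem (mul_mem (inv_mem nN) WN) nN) WN
  generalize hY : n⁻¹ * W * n * W = Y at cY pY YN
  have YT : ∀ {x}, x ∈ closure ({Z, V, U} : Set G) → Y * x * Y⁻¹ ∈ T := fun hx =>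
    hK ((mem_normalizer_iff.1 YN _).1 hx)
  refine ⟨Y, cY, pY, ?_, h.eq2 hT hc (YT ZK) VT ?_, h.eq2 hT hc (YT VK) (mul_mem ZT VT) ?_, ?_,
    mul_inv_eq_iff_eq_mul.1 (h.eq2 hT hc (YT UK) UT ?_)⟩
  · have cYY : Y * Y * t = t * (Y * Y) := Hy.cmul cY cY
    have ho : Odd (orderOf (Y * Y * Y)) := h.odd _ (Hy.cmul cYY cY) (by
      rw [h.mul _ _ cYY cY, h.mul _ _ cY cY, pY, ← pow_three', y3])
    refine ((by decide : Odd 3).mul ho).of_dvd_nat (orderOf_dvd_of_pow_eq_one ?_)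
    rw [pow_mul, pow_three', pow_orderOf_eq_one]
  · rw [h.cj cY (ct ZT), pY, yz]
  · rw [h.cj cY (ct VT), pY, yv, h.mul _ _ (ct ZT) (ct VT)]
  · rw [← hY]
    calc W * (n⁻¹ * W * n * W) * W = W * n⁻¹ * W * n * (W * W) := by group
      _ = W⁻¹ * n⁻¹ * W⁻¹ * n := by rw [WW, Wi, mul_one]
      _ = (n⁻¹ * W * n * W)⁻¹ := by group
  · rw [h.cj cY (ct UT), pY, yu]

end FYH

theorem Hy.mc {F : Lf G} (h : Hy F.t π L) (m : Mq L z v1 v2 y1 y2) (q : Lq F π L z v1 v2 y1 y2) :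
    ∃ y1' y2', Mc F (h.pre L) y1' y2' := by
  have fz : F.f * F.z = F.z * F.f := F.Tz F.fT
  obtain ⟨Y1, c1, p1, o1, a1, b1, d1, e1⟩ := FYH.gen h F.syl.isP F.syl.le F.zT F.v1T F.fT F.v2T
    F.v22 (mul_inv_eq_iff_eq_mul.2 F.zv2.symm)
    (mul_inv_eq_iff_eq_mul.2 (F.v21.trans (mul_assoc _ _ _).symm))
    (mul_inv_eq_iff_eq_mul.2 F.fv2.symm) m.y1L m.y13 (by rw [q.pz, q.p1, m.y1z])
    (by rw [q.pz, q.p1, m.y1v]) (mul_inv_eq_iff_eq_mul.2 q.y1f.symm) (by rw [q.p2, m.v2y])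
  obtain ⟨U, UT, Uv, Uy, Uf⟩ : ∃ U ∈ F.T, F.v1 * U = U * F.v1 ∧ y2 * π U = π U * y2 ∧
      (F.f ≠ 1 → U = F.z * F.f) := by
    by_cases hf : F.f = 1
    · exact ⟨1, one_mem _, by simp, by rw [h.one]; simp, fun h => absurd hf h⟩
    · refine ⟨F.z * F.f, mul_mem F.zT F.fT, ?_, ?_, fun _ => rfl⟩
      · rw [F.bs_az, ← F.fv1, mul_assoc]
      · rw [h.mul _ _ (F.Tt F.zT) (F.Tt F.fT), q.pz, q.y2f hf]
  have v12 : F.v1 * F.v2 = F.z * F.v2 * F.v1 := by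
    rw [mul_assoc, F.v21, F.bs_zz]
  obtain ⟨Y2, c2, p2, o2, a2, b2, d2, e2⟩ := FYH.gen h F.syl.isP F.syl.le F.zT F.v2T UT F.v1T
    F.v11 (mul_inv_eq_iff_eq_mul.2 F.zv1.symm) (mul_inv_eq_iff_eq_mul.2 v12)
    (mul_inv_eq_iff_eq_mul.2 Uv) m.y2L m.y23 (by rw [q.pz, q.p2, m.y2z])
    (by rw [q.pz, q.p2, m.y2v]) (mul_inv_eq_iff_eq_mul.2 Uy) (by rw [q.p1, m.v1y])
  exact ⟨Y1, Y2, q.r2, fun a ha => ha.1, fun g hg => h.HN hg,
    fun x hx => ⟨fun hA => (q.TA x hx).1 hA.2, fun hD => ⟨F.Tt hx, (q.TA x hx).2 hD⟩⟩,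
    ⟨c1, p1 ▸ m.y1L⟩, ⟨c2, p2 ▸ m.y2L⟩, o1, o2, a1, a2, b1, b2, d1, d2, e1, fun hf => Uf hf ▸ e2⟩

end H60M.MC
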