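import Mathlib
import Cfsg.Agent.Lib.M37.Defs
import Cfsg.Agent.S2119

/-! The model `A₇`. -/

set_option autoImplicit false
set_option maxRecDepth 100000

namespace H60M.MC

open Subgroup H69 H36.SW H80.A6C

namespace ModAH
open Equiv Equiv.Perm

abbrev S7 := Perm (Fin 7)
abbrev A7 := alternatingGroup (Fin 7)
def qz : S7 := swap 0 1 * swap 2 3
def q1 : S7 := swap 0 2 * swap 1 3
def q2 : S7 := swap 0 1 * swap 4 5
def ez : A7 := ⟨qz, mem_alternatingGroup.2 (by decide +kernel)⟩
def e1 : A7 := ⟨q1, mem_alternatingGroup.2 (by decide +kernel)⟩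
def e2 : A7 := ⟨q2, mem_alternatingGroup.2 (by decide +kernel)⟩
def y1 : A7 := ⟨swap 0 1 * swap 0 2, mem_alternatingGroup.2 (by decide +kernel)⟩
def y2 : A7 := ⟨q1 * (swap 0 4 * swap 1 5), mem_alternatingGroup.2 (by decide +kernel)⟩
def LC : List S7 := [1, qz, swap 4 5, qz * swap 4 5]
def LD : List S7 := [1, qz, q1, qz * q1, q2, qz * q2, q1 * q2, q2 * q1]

set_option synthInstance.maxSize 4000 in
theorem pts : ∀ a b c : Fin 7, q1 a ≠ a → q2 a ≠ a → q1 b = b → q2 b ≠ b → q1 c = c → q2 c = c →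
    ∃ q ∈ LC, q 0 = a ∧ q 1 = q2 a ∧ q 2 = q1 a ∧ q 3 = q1 (q2 a) ∧ q 4 = b ∧ q 5 = q2 b ∧ q 6 = c := by
  decide +kernel

theorem cen {p : S7} (h1 : p * q1 * p⁻¹ = q1) (h2 : p * q2 * p⁻¹ = q2) : p ∈ LC := by
  have a : ∀ x y, q1 x = y → q1 (p x) = p y := fun x y e => by
    rw [← e, ← mul_apply, ← mul_inv_eq_iff_eq_mul.1 h1, mul_apply]
  have b : ∀ x y, q2 x = y → q2 (p x) = p y := fun x y e => by
    rw [← e, ← mul_apply, ← mul_inv_eq_iff_eq_mul.1 h2, mul_apply]
  obtain ⟨q, hq, r0, r1, r2, r3, r4, r5, r6⟩ := pts (p 0) (p 4) (p 6)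
    (by rw [a 0 2 (by decide)]; exact p.injective.ne (by decide))
    (by rw [b 0 1 (by decide)]; exact p.injective.ne (by decide)) (a 4 4 (by decide))
    (by rw [b 4 5 (by decide)]; exact p.injective.ne (by decide)) (a 6 6 (by decide)) (b 6 6 (by decide))
  rw [b 0 1 (by decide)] at r1 r3
  rw [a 0 2 (by decide)] at r2
  rw [a 1 3 (by decide)] at r3
  rw [b 4 5 (by decide)] at r5
  obtain rfl : q = p := Equiv.ext fun x => by fin_cases x <;> assumption
  exact hq

theorem clD : ∀ a ∈ LD, a⁻¹ ∈ LD ∧ ∀ b ∈ LD, a * b ∈ LD := by decide +kernel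

theorem memD {d : S7} : d ∈ closure ({q1, q2} : Set S7) ↔ d ∈ LD := by
  refine ⟨fun hd => ?_, fun h => ?_⟩
  · induction hd using closure_induction with
    | mem x hx => rcases hx with rfl | rfl <;> decide +kernel
    | one => decide +kernel
    | mul x y _ _ hx hy => exact (clD x hx).2 y hy
    | inv x _ hx => exact (clD x hx).1
  have a : q1 ∈ closure ({q1, q2} : Set S7) := subset_closure (Or.inl rfl)
  have b : q2 ∈ closure ({q1, q2} : Set S7) := subset_closure (Or.inr rfl)
  have c : qz ∈ closure ({q1, q2} : Set S7) :=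
    (show q1 * q2 * (q1 * q2) = qz by decide +kernel) ▸ mul_mem (mul_mem a b) (mul_mem a b)
  simp only [LD, List.mem_cons, List.not_mem_nil, or_false] at h
  rcases h with rfl | rfl | rfl | rfl | rfl | rfl | rfl | rfl
  exacts [one_mem _, c, a, mul_mem c a, b, mul_mem c b, mul_mem a b, mul_mem b a]

theorem syl : IsSylowIn 2 (closure ({e1, e2} : Set A7)) ⊤ := by
  have : Fact (Nat.Prime 2) := ⟨Nat.prime_two⟩
  have c : Nat.card (closure ({e1, e2} : Set A7)) = 8 := by
    have : (closure ({q1, q2} : Set S7) : Set S7) = ↑LD.toFinset := Set.ext fun d => by simpa using memD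
    rw [← card_map_of_injective A7.subtype_injective, MonoidHom.map_closure, Set.image_pair]
    show Nat.card (closure ({q1, q2} : Set S7)) = 8
    rw [← SetLike.coe_sort_coe, this, Nat.card_coe_set_eq, Set.ncard_coe_finset]
    decide +kernel
  have r := (closure ({e1, e2} : Set A7)).card_mul_index
  have t := two_mul_nat_card_alternatingGroup (α := Fin 7)
  rw [Nat.card_perm, Nat.card_fin, show Nat.factorial 7 = 5040 from rfl, ← r, c] at t
  exact isSylowIn_of_not_dvd_relIndex (IsPGroup.of_card (n := 3) c) le_top (by rw [relIndex_top_right]; omega)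

theorem aut (φ : MulAut A7) (h1 : φ e1 = e1) (h2 : φ e2 = e2) :
    ∃ p ∈ LC, φ = MulAut.conjNormal p ∧ ∀ x, (φ x).1 = p * x * p⁻¹ := by
  obtain ⟨p, rfl⟩ := (Cfsg.Agent.S2119.result 7 (by norm_num) (by norm_num)).2 φ
  exact ⟨p, cen (congrArg Subtype.val h1) (congrArg Subtype.val h2), rfl, fun _ => rfl⟩

theorem supp {p a v : S7} (h : p * a * p⁻¹ = a) (e : a * qz * a⁻¹ = v) :
    (qz * p).support.card = (v * p).support.card := by
  rw [← card_support_conj (σ := a), ← e, mul_assoc _ a⁻¹, ← mul_assoc a, mul_assoc _ p]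
  congr 3
  rw [mul_inv_eq_iff_eq_mul, mul_assoc, mul_inv_eq_iff_eq_mul.1 h, inv_mul_cancel_left]

theorem fin (p : S7) (hp : p ∈ LC) (h1 : (qz * p).support.card = (q1 * p).support.card)
    (h2 : (qz * p).support.card = (q2 * p).support.card) : p = 1 := by
  simp only [LC, List.mem_cons, List.not_mem_nil, or_false] at hp
  rcases hp with rfl | rfl | rfl | rfl
  · rfl
  · exact absurd h1 (by decide +kernel)
  · exact absurd h2 (by decide +kernel)
  · exact absurd h1 (by decide +kernel)

end ModAH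
open ModAH

theorem md7 : ∃ z v1 v2 y1 y2 : alternatingGroup (Fin 7), Md z v1 v2 y1 y2 := by
  refine ⟨ez, e1, e2, ModAH.y1, ModAH.y2, by decide +kernel, by decide +kernel, by decide +kernel, by decide +kernel,
    by decide +kernel, syl, by decide +kernel, by decide +kernel, by decide +kernel, by decide +kernel,
    by decide +kernel, by decide +kernel, by decide +kernel, by decide +kernel, fun φ h1 h2 => ?_,
    fun φ _ h1 h2 a b ha hb ea eb => ?_⟩
  · obtain ⟨p, hp, -, h⟩ := aut φ h1 h2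
    simp only [Subtype.ext_iff, h]
    clear h
    revert p
    decide +kernel
  · obtain ⟨p, hp, e, h⟩ := aut φ h1 h2
    rw [e, fin p hp (supp ((h a).symm.trans (congrArg Subtype.val ha)) (congrArg Subtype.val ea))
      (supp ((h b).symm.trans (congrArg Subtype.val hb)) (congrArg Subtype.val eb)), map_one]

end H60M.MC
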