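import Mathlib
import Cfsg.Agent.Lib.M37.Defs
import Cfsg.Agent.Lib.GL.Basic
import Cfsg.Agent.Lib.Leech.Export
import Cfsg.Agent.S0280
import Cfsg.Agent.S0245
import Cfsg.Agent.S0246
import Cfsg.Agent.S1695

/-! Orders. -/

set_option autoImplicit false

namespace H60M.MC

open Subgroup H69 H36.SW H80.A6C

variable {K : Type} [Field K] [Fintype K] {H : Type*} [Group H]

theorem ord9 (hq : Fintype.card K % 16 = 7 ∨ Fintype.card K % 16 = 9) (hs : IsSquare (Fintype.card K)) {N : ℕ}
    (hN : N = 979200 ∨ N = 9999360 ∨ N = 13685760 ∨ N = 44352000 ∨ N = 4030387200)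
    (hd : Nat.card (P2F K) ∣ N) : Fintype.card K = 9 := by
  obtain ⟨r, hr⟩ := hs
  have c := H10.card_PSL_two (F := K)
  rw [Nat.card_eq_fintype_card (α := K)] at c
  have g : Nat.gcd 2 (Fintype.card K - 1) = 2 := Nat.gcd_eq_left (by omega)
  rw [g] at c
  have d : Fintype.card K * (Fintype.card K - 1) * (Fintype.card K + 1) ∣ 2 * N :=
    c ▸ Nat.mul_dvd_mul_left 2 hd
  rw [hr] at d hq ⊢
  have b : r < 46 := by
    by_contra h
    have h1 : 46 * 46 ≤ r * r := Nat.mul_le_mul (by omega) (by omega)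
    have h2 : 2116 * 2115 * 2117 ≤ r * r * (r * r - 1) * (r * r + 1) :=
      Nat.mul_le_mul (Nat.mul_le_mul h1 (by omega)) (by omega)
    have h3 := Nat.le_of_dvd (by omega) d
    omega
  clear c g hd hr
  revert r
  rcases hN with rfl | rfl | rfl | rfl | rfl
  all_goals
    intro r hq d b
    revert hq d
    revert r
    decide +kernel

theorem ordS44 (h : Fintype.card K = 4) : Nat.card (Cfsg.PSp 2 K) = 979200 := by
  have a := Cfsg.Agent.S0245.result h 2
  have b := Cfsg.Agent.S0246.result h 2 (by norm_num)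
  have c := (center (Matrix.symplecticGroup (Fin 2) K)).card_mul_index
  rw [a, b] at c
  simp only [Finset.prod_range_succ] at c
  norm_num at c
  exact c

theorem ordU52 (h : Fintype.card K = 4) : Nat.card (Cfsg.PSU 5 K 2) = 13685760 := by
  have a := Cfsg.Agent.S0280.result (q := 2) h 5 (by norm_num)
  simp only [Finset.prod_range_succ] at a
  norm_num [Nat.even_iff] at a
  omega

theorem ordL52 (h : Fintype.card K = 2) : Nat.card (Matrix.ProjectiveSpecialLinearGroup (Fin 5) K) = 9999360 := by
  have a := H10.card_PSL_fin (F := K) 5 (by norm_num)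
  rw [Nat.card_eq_fintype_card (α := K), h] at a
  simp only [Fin.prod_univ_five] at a
  norm_num at a
  exact a

theorem ordHS (e : Cfsg.Spor.IsoHS H) : Nat.card H = 44352000 := by
  obtain ⟨e⟩ := e
  exact (Nat.card_congr e.toEquiv).trans H16.card_sHS

theorem ordHe (e : Cfsg.Spor.IsoHe H) : Nat.card H = 4030387200 := by
  obtain ⟨e⟩ := e
  exact (Nat.card_congr e.toEquiv).trans Cfsg.Agent.S1695.result.2

end H60M.MC
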