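import Mathlib
import Cfsg.Agent.Lib.M37.Defs
import Cfsg.Agent.Lib.AutCl.PSLAut

/-! `PSL₂` in odd characteristic: lifts. -/

set_option autoImplicit false

namespace H60M.MC

open Subgroup H69 H36.SW H80.A6C

variable {F : Type} [Field F]

/-- the image of a matrix -/
abbrev pm (A : Matrix.SpecialLinearGroup (Fin 2) F) : P2F F := QuotientGroup.mk A

namespace P0H

theorem pm_mul (A B : Matrix.SpecialLinearGroup (Fin 2) F) : pm (A * B) = pm A * pm B := rfl

theorem pm_one : pm (1 : Matrix.SpecialLinearGroup (Fin 2) F) = 1 := rfl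

theorem val_mul (A B : Matrix.SpecialLinearGroup (Fin 2) F) : (A * B).1 = A.1 * B.1 := rfl

theorem val_one : (1 : Matrix.SpecialLinearGroup (Fin 2) F).1 = 1 := rfl

/-- two matrices commuting with a non-scalar matrix commute -/
theorem comm_of_not_scalar {A B g : Matrix (Fin 2) (Fin 2) F} (gA : g * A = A * g) (gB : g * B = B * g)
    (hg : ¬ ∃ s : F, g = s • (1 : Matrix (Fin 2) (Fin 2) F)) : A * B = B * A := by
  have a00 := congrFun (congrFun gA 0) 0
  have a01 := congrFun (congrFun gA 0) 1
  have a10 := congrFun (congrFun gA 1) 0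
  have b00 := congrFun (congrFun gB 0) 0
  have b01 := congrFun (congrFun gB 0) 1
  have b10 := congrFun (congrFun gB 1) 0
  simp only [Matrix.mul_apply, Fin.sum_univ_two] at a00 a01 a10 b00 b01 b10
  have hw : g 0 1 ≠ 0 ∨ g 1 0 ≠ 0 ∨ g 0 0 - g 1 1 ≠ 0 := by
    by_contra hc
    simp only [not_or, not_not] at hc
    obtain ⟨h1, h2, h3⟩ := hc
    refine hg ⟨g 0 0, ?_⟩
    ext i j
    fin_cases i <;> fin_cases j <;> simp [h1, h2, (sub_eq_zero.1 h3)]
  have e1 : A 0 1 * B 1 0 = B 0 1 * A 1 0 := by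
    rcases hw with h | h | h
    · refine mul_left_cancel₀ h ?_
      linear_combination A 0 1 * b00 - B 0 1 * a00
    · refine mul_left_cancel₀ h ?_
      linear_combination A 1 0 * b00 - B 1 0 * a00
    · refine mul_left_cancel₀ h ?_
      linear_combination B 1 0 * a01 + B 0 1 * a10 + (A 0 0 - A 1 1) * b00
  have e2 : B 0 1 * (A 0 0 - A 1 1) = A 0 1 * (B 0 0 - B 1 1) := by
    rcases hw with h | h | h
    · refine mul_left_cancel₀ h ?_
      linear_combination A 0 1 * b01 - B 0 1 * a01
    · refine mul_left_cancel₀ h ?_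
      linear_combination B 0 1 * a10 + A 1 0 * b01 + (B 0 0 - B 1 1) * a00
    · refine mul_left_cancel₀ h ?_
      linear_combination (A 0 0 - A 1 1) * b01 - (B 0 0 - B 1 1) * a01
  have e3 : B 1 0 * (A 0 0 - A 1 1) = A 1 0 * (B 0 0 - B 1 1) := by
    rcases hw with h | h | h
    · refine mul_left_cancel₀ h ?_
      linear_combination -(B 1 0 * a01) - A 0 1 * b10 - (B 0 0 - B 1 1) * a00
    · refine mul_left_cancel₀ h ?_
      linear_combination B 1 0 * a10 - A 1 0 * b10
    · refine mul_left_cancel₀ h ?_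
      linear_combination (B 0 0 - B 1 1) * a10 - (A 0 0 - A 1 1) * b10
  ext i j
  fin_cases i <;> fin_cases j <;> simp only [Matrix.mul_apply, Fin.sum_univ_two, Fin.zero_eta, Fin.mk_one]
  · linear_combination e1
  · linear_combination e2
  · linear_combination -e3
  · linear_combination -e1

end P0H

open P0H

theorem p_eq {A B : Matrix.SpecialLinearGroup (Fin 2) F} : pm A = pm B ↔ A.1 = B.1 ∨ A.1 = -B.1 := by
  rw [QuotientGroup.eq]
  have e : A.1 * (A⁻¹ * B).1 = B.1 := by rw [← val_mul, mul_inv_cancel_left]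
  constructor
  · intro h
    obtain ⟨r, hr, h⟩ := Matrix.SpecialLinearGroup.mem_center_iff.1 h
    rw [Fintype.card_fin] at hr
    have h' : (A⁻¹ * B).1 = Matrix.scalar (Fin 2) r := h.symm
    rw [h'] at e
    rcases sq_eq_one_iff.1 hr with rfl | rfl
    · left
      rw [← e, map_one, mul_one]
    · right
      rw [← e, map_neg, map_one, mul_neg, mul_one, neg_neg]
  · rintro (h | h)
    · rw [Subtype.ext h, inv_mul_cancel]
      exact one_mem _
    · refine H67.scalar_mem_center_sl (c := -1) ?_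
      have hB : B.1 = -A.1 := by rw [h, neg_neg]
      rw [val_mul, hB, mul_neg, ← val_mul, inv_mul_cancel, val_one, neg_smul, one_smul]

theorem p_inv {A : Matrix.SpecialLinearGroup (Fin 2) F} (h : pm A * pm A = 1) (h1 : pm A ≠ 1) :
    A.1.trace = 0 ∧ A.1 * A.1 = -1 := by
  rw [← pm_mul, ← pm_one, p_eq, val_mul, val_one] at h
  rw [← pm_one, Ne, p_eq, val_one, not_or] at h1
  have hd := A.2
  rw [Matrix.det_fin_two] at hd
  have key : A.1 0 0 + A.1 1 1 = 0 := by
    by_contra hne
    rcases h with h | h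
    · have a00 := congrFun (congrFun h 0) 0
      have a01 := congrFun (congrFun h 0) 1
      have a10 := congrFun (congrFun h 1) 0
      simp only [Matrix.mul_apply, Fin.sum_univ_two, Matrix.one_apply_eq, ne_eq, zero_ne_one,
        not_false_eq_true, Matrix.one_apply_ne, one_ne_zero] at a00 a01 a10
      have hb : A.1 0 1 = 0 := mul_left_cancel₀ hne (by linear_combination a01)
      have hc : A.1 1 0 = 0 := mul_left_cancel₀ hne (by linear_combination a10)
      rw [hb] at a00 hd
      have h2 : (A.1 0 0 - 1) * (A.1 0 0 + 1) = 0 := by linear_combination a00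
      rcases mul_eq_zero.1 h2 with h3 | h3
      · have h4 : A.1 0 0 = 1 := by linear_combination h3
        have h5 : A.1 1 1 = 1 := by rw [h4] at hd; linear_combination hd
        refine h1.1 ?_
        ext i j
        fin_cases i <;> fin_cases j <;> simp [hb, hc, h4, h5]
      · have h4 : A.1 0 0 = -1 := by linear_combination h3
        have h5 : A.1 1 1 = -1 := by rw [h4] at hd; linear_combination -hd
        refine h1.2 ?_
        ext i j
        fin_cases i <;> fin_cases j <;> simp [hb, hc, h4, h5]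
    · have a00 := congrFun (congrFun h 0) 0
      have a01 := congrFun (congrFun h 0) 1
      simp only [Matrix.mul_apply, Fin.sum_univ_two, Matrix.neg_apply, Matrix.one_apply_eq, ne_eq,
        zero_ne_one, not_false_eq_true, Matrix.one_apply_ne, neg_zero] at a00 a01
      have hb : A.1 0 1 = 0 := mul_left_cancel₀ hne (by linear_combination a01)
      rw [hb] at a00 hd
      have h0 : A.1 0 0 ≠ 0 := by
        intro h0
        rw [h0] at hd
        simp at hd
      exact hne (mul_left_cancel₀ h0 (by linear_combination a00 + hd))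
  refine ⟨by rw [Matrix.trace_fin_two, key], ?_⟩
  ext i j
  fin_cases i <;> fin_cases j <;>
    simp only [Matrix.mul_apply, Fin.sum_univ_two, Fin.zero_eta, Fin.mk_one, Matrix.neg_apply,
      Matrix.one_apply_eq, ne_eq, zero_ne_one, not_false_eq_true, Matrix.one_apply_ne, neg_zero,
      one_ne_zero]
  · linear_combination A.1 0 0 * key - hd
  · linear_combination A.1 0 1 * key
  · linear_combination A.1 1 0 * key
  · linear_combination A.1 1 1 * key - hd

theorem p_anti {A B : Matrix.SpecialLinearGroup (Fin 2) F} (hA : pm A * pm A = 1) (hB : pm B * pm B = 1)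
    (A1 : pm A ≠ 1) (B1 : pm B ≠ 1) (n : pm A ≠ pm B) (c : pm A * pm B = pm B * pm A) :
    A.1 * B.1 = -(B.1 * A.1) := by
  have c' := c
  rw [← pm_mul, ← pm_mul, p_eq, val_mul, val_mul] at c'
  rcases c' with c' | c'
  swap
  · exact c'
  have h1 : pm (A * B) ≠ 1 := by
    intro h
    rw [pm_mul] at h
    exact n (mul_right_cancel (h.trans hB.symm))
  have h2 : pm (A * B) * pm (A * B) = 1 := by
    rw [pm_mul]
    calc pm A * pm B * (pm A * pm B) = pm A * (pm B * pm A) * pm B := by group
      _ = (pm A * pm A) * (pm B * pm B) := by rw [← c]; group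
      _ = 1 := by rw [hA, hB, one_mul]
  have h3 := (p_inv h2 h1).2
  have h4 : (A * B).1 * (A * B).1 = 1 := by
    rw [val_mul]
    calc A.1 * B.1 * (A.1 * B.1) = A.1 * (B.1 * A.1) * B.1 := by simp only [mul_assoc]
      _ = (A.1 * A.1) * (B.1 * B.1) := by rw [← c']; simp only [mul_assoc]
      _ = 1 := by rw [(p_inv hA A1).2, (p_inv hB B1).2, neg_mul_neg, one_mul]
  rw [h4] at h3
  rw [c', ← neg_one_mul, ← h3, one_mul]

theorem p_scalar (h2 : (2 : F) ≠ 0) {A B g : Matrix (Fin 2) (Fin 2) F} (hA : A * A = -1) (hB : B * B = -1)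
    (c : A * B = -(B * A)) (gA : g * A = A * g) (gB : g * B = B * g) :
    ∃ s : F, g = s • (1 : Matrix (Fin 2) (Fin 2) F) := by
  by_contra hg
  have h := comm_of_not_scalar gA gB hg
  rw [← h] at c
  have h1 : A * (A * B) * B = 1 := by
    rw [← mul_assoc, mul_assoc (A * A), hA, hB, neg_mul_neg, one_mul]
  have h3 : A * (A * B) * B = -1 := by
    rw [c, mul_neg, neg_mul, h1]
  rw [h1] at h3
  have h4 := congrFun (congrFun h3 0) 0
  simp only [Matrix.one_apply_eq, Matrix.neg_apply] at h4
  exact h2 (by linear_combination h4)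

theorem p_cen (h2 : (2 : F) ≠ 0) {z v w : P2F F} (zz : z * z = 1) (vv : v * v = 1) (z1 : z ≠ 1) (v1 : v ≠ 1)
    (n : z ≠ v) (c : z * v = v * z) (wz : w * z = z * w) (wv : w * v = v * w) :
    w = 1 ∨ w = z ∨ w = v ∨ w = z * v := by
  obtain ⟨Z, rfl⟩ := QuotientGroup.mk_surjective z
  obtain ⟨V, rfl⟩ := QuotientGroup.mk_surjective v
  obtain ⟨W, rfl⟩ := QuotientGroup.mk_surjective w
  have hZ := (p_inv zz z1).2
  have hV := (p_inv vv v1).2
  have hc := p_anti zz vv z1 v1 n c
  have hc' : V.1 * Z.1 = -(Z.1 * V.1) := by rw [hc, neg_neg]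
  have one : ∀ X : Matrix.SpecialLinearGroup (Fin 2) F, X.1 * Z.1 = Z.1 * X.1 → X.1 * V.1 = V.1 * X.1 →
      pm X = 1 := fun X a b => by
    obtain ⟨s, hs⟩ := p_scalar h2 hZ hV hc a b
    exact (QuotientGroup.eq_one_iff _).2 (H67.scalar_mem_center_sl hs)
  have wz' := p_eq.1 (show pm (W * Z) = pm (Z * W) from wz)
  have wv' := p_eq.1 (show pm (W * V) = pm (V * W) from wv)
  rw [val_mul, val_mul] at wz' wv'
  rcases wz' with a | a <;> rcases wv' with b | b
  · exact Or.inl (one W a b)
  · have h := one (W * Z) (by rw [val_mul, ← mul_assoc, a])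
      (by rw [val_mul, mul_assoc, hc, mul_neg, ← mul_assoc, b, neg_mul, neg_neg, mul_assoc])
    rw [pm_mul] at h
    exact Or.inr (Or.inl (mul_right_cancel (h.trans zz.symm)))
  · have h := one (W * V)
      (by rw [val_mul, mul_assoc, hc', mul_neg, ← mul_assoc, a, neg_mul, neg_neg, mul_assoc])
      (by rw [val_mul, ← mul_assoc, b])
    rw [pm_mul] at h
    exact Or.inr (Or.inr (Or.inl (mul_right_cancel (h.trans vv.symm))))
  · have a' : Z.1 * W.1 = -(W.1 * Z.1) := by rw [a, neg_neg]
    have b' : V.1 * W.1 = -(W.1 * V.1) := by rw [b, neg_neg]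
    have h := one (W * (Z * V))
      (by
        rw [val_mul, val_mul, ← mul_assoc Z.1, a', mul_assoc, mul_assoc, hc', mul_neg, mul_neg, neg_mul,
          mul_assoc])
      (by
        rw [val_mul, val_mul, ← mul_assoc V.1, b', neg_mul, mul_assoc W.1 V.1, ← mul_assoc V.1, hc',
          neg_mul, mul_neg, neg_neg, mul_assoc])
    rw [pm_mul, pm_mul] at h
    have h' : pm Z * pm V * (pm Z * pm V) = 1 := by
      calc pm Z * pm V * (pm Z * pm V) = pm Z * (pm V * pm Z) * pm V := by group
        _ = (pm Z * pm Z) * (pm V * pm V) := by rw [← c]; group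
        _ = 1 := by rw [zz, vv, one_mul]
    exact Or.inr (Or.inr (Or.inr (mul_right_cancel (h.trans h'.symm))))

theorem p_act (g : GL (Fin 2) F) (σ : F ≃+* F) {A B : Matrix.SpecialLinearGroup (Fin 2) F} :
    (H67.pslInn (Fin 2) F g * H67.pslField (Fin 2) F σ) (pm A) = pm B ↔
      (g : Matrix (Fin 2) (Fin 2) F) * A.1.map σ = B.1 * g ∨ (g : Matrix (Fin 2) (Fin 2) F) * A.1.map σ = -(B.1 * g) := by
  have hd : (A.1.map σ).det = 1 := by
    have := RingHom.map_det (σ : F →+* F) A.1
    rw [A.2, map_one] at this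
    exact this.symm
  let s : Matrix.SpecialLinearGroup (Fin 2) F :=
    ⟨(g : Matrix (Fin 2) (Fin 2) F) * A.1.map σ * ((g⁻¹ : GL (Fin 2) F) : Matrix (Fin 2) (Fin 2) F), by
      rw [Matrix.det_units_conj, hd]⟩
  have h := (H67.isInducedBySemilinearPSL_iff g σ _).2 rfl A s rfl
  have h' : (H67.pslInn (Fin 2) F g * H67.pslField (Fin 2) F σ) (pm A) = pm s := h
  rw [h', p_eq, ← neg_mul]
  exact or_congr (Units.mul_inv_eq_iff_eq_mul _) (Units.mul_inv_eq_iff_eq_mul _)

end H60M.MC
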