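import Mathlib
import Cfsg.Agent.Lib.M37.P0

/-! `PSL₂(q)`, `q ≡ ±7 mod 16`: involutory automorphisms. -/

set_option autoImplicit false

namespace H60M.MC

open Subgroup H69 H36.SW H80.A6C

variable {F : Type} [Field F] [Fintype F]

namespace P1H

theorem odd (hq : Fintype.card F % 16 = 7 ∨ Fintype.card F % 16 = 9) : (2 : F) ≠ 0 :=
  Ring.two_ne_zero fun e => by
    have := FiniteField.even_card_iff_char_two.1 e
    omega

theorem no_fix (hq : Fintype.card F % 16 = 7 ∨ Fintype.card F % 16 = 9) {σ : RingAut F} (h2 : σ * σ = 1)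
    (h1 : σ ≠ 1) {τ : F} (ht : τ * τ = 2) (hf : σ τ = τ) : False := by
  classical
  haveI : Finite (zpowers σ) := Nat.finite_of_card_ne_zero (by rw [card_zp h2 h1]; norm_num)
  haveI := Fintype.ofFinite (zpowers σ)
  let K := FixedPoints.subfield (zpowers σ) F
  have hK : τ ∈ K := fun h => by
    rcases (mem_zp h2).1 h.2 with e | e
    · change h.1 τ = τ
      rw [e]; rfl
    · change h.1 τ = τ
      rw [e, hf]
  have c : Fintype.card F = Fintype.card K ^ 2 := by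
    rw [Module.card_eq_pow_finrank (K := K), FixedPoints.finrank_eq_card, ← Nat.card_eq_fintype_card,
      ← Nat.card_eq_fintype_card, card_zp h2 h1]
  have s := FiniteField.isSquare_two_iff.1 (⟨⟨τ, hK⟩, Subtype.ext ht.symm⟩ : IsSquare (2 : K))
  generalize Fintype.card K = r at c s
  rw [c, Nat.pow_mod] at hq
  have : r % 16 < 16 := Nat.mod_lt _ (by norm_num)
  have e : r % 8 = r % 16 % 8 := (Nat.mod_mod_of_dvd r (by norm_num)).symm
  rw [e] at s
  generalize r % 16 = k at *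
  interval_cases k <;> simp_all

omit [Fintype F]

/-- the sign is `+1` -/
def Pl (g : GL (Fin 2) F) (σ : F ≃+* F) (X : Matrix.SpecialLinearGroup (Fin 2) F) : Prop :=
  (g : Matrix (Fin 2) (Fin 2) F) * σ.mapMatrix X.1 = X.1 * g

variable {g : GL (Fin 2) F} {σ : F ≃+* F} {X Y A : Matrix.SpecialLinearGroup (Fin 2) F}

theorem fix (h : (H67.pslInn (Fin 2) F g * H67.pslField (Fin 2) F σ) (pm X) = pm X) :
    ∃ ε : F, ε * ε = 1 ∧ (g : Matrix (Fin 2) (Fin 2) F) * σ.mapMatrix X.1 = ε • (X.1 * g) := by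
  rcases (p_act g σ).1 h with e | e
  · exact ⟨1, one_mul _, by rw [one_smul]; exact e⟩
  · exact ⟨-1, by simp, by rw [neg_one_smul]; exact e⟩

theorem Pl.sq (h : (H67.pslInn (Fin 2) F g * H67.pslField (Fin 2) F σ) (pm X) = pm X) : Pl g σ (X * X) := by
  obtain ⟨ε, e, h⟩ := fix h
  rw [Pl, Matrix.SpecialLinearGroup.coe_mul, map_mul, ← mul_assoc, h, smul_mul_assoc, mul_assoc, h,
    mul_smul_comm, smul_smul, e, one_smul, mul_assoc]

theorem Pl.mul (h : Pl g σ X) (h' : Pl g σ Y) : Pl g σ (X * Y) := by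
  rw [Pl, Matrix.SpecialLinearGroup.coe_mul, map_mul, ← mul_assoc, h, mul_assoc, h', mul_assoc]

theorem Pl.of_eq (h : Pl g σ X) (e : pm X = pm Y) : Pl g σ Y := by
  rw [Pl] at h ⊢
  rcases p_eq.1 e with e | e <;> rw [e] at h
  · exact h
  · rwa [map_neg, mul_neg, neg_mul, neg_inj] at h

theorem Pl.conj (h : Pl g σ X) (hA : (H67.pslInn (Fin 2) F g * H67.pslField (Fin 2) F σ) (pm A) = pm A) :
    Pl g σ (A * X * A⁻¹) := by
  obtain ⟨ε, -, hA⟩ := fix hA
  have e : (A * X * A⁻¹).1 * A.1 = A.1 * X.1 := by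
    rw [← Matrix.SpecialLinearGroup.coe_mul, inv_mul_cancel_right, Matrix.SpecialLinearGroup.coe_mul]
  have i : σ.mapMatrix A.1 * σ.mapMatrix (A⁻¹).1 = 1 := by
    rw [← map_mul, ← Matrix.SpecialLinearGroup.coe_mul, mul_inv_cancel, Matrix.SpecialLinearGroup.coe_one, map_one]
  rw [Pl] at h ⊢
  generalize (A * X * A⁻¹).1 = W at e ⊢
  calc _ = (g : Matrix (Fin 2) (Fin 2) F) * σ.mapMatrix (W * A.1) * σ.mapMatrix (A⁻¹).1 := by
        rw [map_mul, ← mul_assoc, mul_assoc _ (σ.mapMatrix A.1), i, mul_one]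
    _ = W * ((g : Matrix (Fin 2) (Fin 2) F) * σ.mapMatrix A.1) * σ.mapMatrix (A⁻¹).1 := by
        rw [e, map_mul, ← mul_assoc, hA, smul_mul_assoc, mul_assoc A.1, h, mul_smul_comm, ← mul_assoc,
          ← mul_assoc, e]
    _ = _ := by rw [mul_assoc, mul_assoc, i, mul_one]

theorem Pl.tr (h : Pl g σ X) : σ X.1.trace = X.1.trace := by
  have e : σ.mapMatrix X.1 = ((g⁻¹ : GL (Fin 2) F) : Matrix (Fin 2) (Fin 2) F) * (X.1 * g) := by
    rw [← h, Units.inv_mul_cancel_left]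
  calc σ X.1.trace = (σ.mapMatrix X.1).trace := by simp [Matrix.trace_fin_two]
    _ = _ := by rw [e, Matrix.trace_mul_comm, mul_assoc, Units.mul_inv, mul_one]

theorem tr_sq (X : Matrix.SpecialLinearGroup (Fin 2) F) (h : (X * X).1.trace = 0) : X.1.trace * X.1.trace = 2 := by
  have d := X.2
  rw [Matrix.det_fin_two] at d
  simp only [Matrix.SpecialLinearGroup.coe_mul, Matrix.trace_fin_two, Matrix.mul_apply, Fin.sum_univ_two] at h ⊢
  linear_combination h + 2 * d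

theorem eqns_P1 : True := by
  have := @Pl.eq_1
  trivial

end P1H

open P1H

theorem p_m2 (hq : Fintype.card F % 16 = 7 ∨ Fintype.card F % 16 = 9) {z v1 v2 : P2F F} (v11 : v1 * v1 = 1) (v22 : v2 * v2 = 1)
    (zz : z * z = 1) (z1 : z ≠ 1) (hz : v1 * v2 * v1 * v2 = z) (φ : MulAut (P2F F)) (φ2 : φ * φ = 1)
    (f1 : φ v1 = v1) (f2 : φ v2 = v2) (a b : P2F F) (fa : φ a = a) (fb : φ b = b) (ha : a * z * a⁻¹ = v1)
    (hb : b * z * b⁻¹ = v2) : φ = 1 := by
  obtain ⟨g, σ, rfl | ⟨h3, -⟩⟩ := H67.psl_aut (by simp) φ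
  swap
  · simp at h3
  have n1 : v1 ≠ 1 := ha ▸ cjne z1 a
  have nz : z ≠ v1 := fun e => z1 (by
    rw [← e, mul_assoc, mul_assoc, mul_eq_left] at hz
    calc z = (v2 * v2) * z * (v2 * v2) := by rw [v22]; group
      _ = v2 * (v2 * (z * v2)) * v2 := by group
      _ = 1 := by rw [hz, mul_one, v22])
  have cz : z * v1 = v1 * z := by
    have : z * (v1 * z * v1) = 1 := by
      calc _ = v1 * v2 * v1 * v2 * (v1 * (v1 * v2 * v1 * v2) * v1) := by rw [hz]
        _ = v1 * (v2 * (v1 * (v2 * (v1 * v1) * v2) * v1) * v2) * v1 := by group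
        _ = 1 := by simp only [v11, v22, mul_one]
    rw [← zz, mul_right_inj] at this
    rw [← this, mul_assoc (v1 * z), v11, mul_one, this]
  have f12 := (map_mul _ v1 v2).trans (congrArg₂ (· * ·) f1 f2)
  obtain ⟨V1, rfl⟩ := QuotientGroup.mk_surjective v1
  obtain ⟨V2, rfl⟩ := QuotientGroup.mk_surjective v2
  obtain ⟨A, rfl⟩ := QuotientGroup.mk_surjective a
  obtain ⟨B, rfl⟩ := QuotientGroup.mk_surjective b
  obtain rfl : z = pm (V1 * V2 * (V1 * V2)) := by rw [← hz, ← mul_assoc]; rfl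
  have pz : Pl g σ (V1 * V2 * (V1 * V2)) := Pl.sq f12
  have p1 : Pl g σ V1 := (pz.conj fa).of_eq ha
  have p2 : Pl g σ V2 := (pz.conj fb).of_eq hb
  by_cases e : σ = 1
  · subst e
    obtain ⟨s, hs⟩ := p_scalar (odd hq) (p_inv zz z1).2 (p_inv v11 n1).2 (p_anti zz v11 z1 n1 nz cz) pz p1
    ext x
    obtain ⟨X, rfl⟩ := QuotientGroup.mk_surjective x
    refine (p_act g 1).2 (Or.inl ?_)
    rw [hs, smul_mul_assoc, mul_smul_comm, one_mul, mul_one]
    rfl
  · refine (no_fix hq ?_ e (tr_sq _ (p_inv zz z1).1) (p1.mul p2).tr).elim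
    refine (H67.pslInn_mul_pslField_eq_one (ι := Fin 2) (by simp) (g := g * H67.glField (Fin 2) σ g) ?_).2
    rw [map_mul, map_mul, ← H67.pslField_conj, ← φ2]
    group

end H60M.MC
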