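import Mathlib
import Cfsg.Agent.Lib.M37.P0

/-! `PSL₂(q)`, `q ≡ ±7 mod 16`: two subgroups `S₄` over one `D₈`. -/

set_option autoImplicit false

namespace H60M.MC

open Subgroup H69 H36.SW H80.A6C

variable {F : Type} [Field F] [Fintype F]

namespace P2H
open Quaternion

variable {K : Type} [Field K]

/-- a matrix model of the quaternions -/
def qm (a b : K) (q : ℍ[K]) : Matrix (Fin 2) (Fin 2) K :=
  !![q.re + q.imJ * a + q.imK * b, q.imI + q.imJ * b - q.imK * a;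
     -q.imI + q.imJ * b - q.imK * a, q.re - q.imJ * a - q.imK * b]

theorem qm_mul {a b : K} (h : a ^ 2 + b ^ 2 = -1) (q r : ℍ[K]) : qm a b (q * r) = qm a b q * qm a b r := by
  ext i j
  fin_cases i <;> fin_cases j <;> simp [qm, Matrix.mul_apply, Fin.sum_univ_two]
  · linear_combination (-(q.imJ * r.imJ) - q.imK * r.imK) * h
  · linear_combination (q.imJ * r.imK - q.imK * r.imJ) * h
  · linear_combination (q.imK * r.imJ - q.imJ * r.imK) * h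
  · linear_combination (-(q.imJ * r.imJ) - q.imK * r.imK) * h

theorem qm_neg (a b : K) (q : ℍ[K]) : qm a b (-q) = -qm a b q := by
  ext i j
  fin_cases i <;> fin_cases j <;> simp [qm] <;> ring

theorem qm_one (a b : K) : qm a b 1 = 1 := by
  ext i j
  fin_cases i <;> fin_cases j <;> simp [qm]

theorem qm_det {a b : K} (h : a ^ 2 + b ^ 2 = -1) (q : ℍ[K]) : (qm a b q).det = normSq q := by
  rw [normSq_def', qm, Matrix.det_fin_two_of]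
  linear_combination (-(q.imJ ^ 2) - q.imK ^ 2) * h

open Classical in
/-- the image of a quaternion of norm one -/
noncomputable def P {a b : K} (h : a ^ 2 + b ^ 2 = -1) (q : ℍ[K]) : P2F K :=
  if e : normSq q = 1 then pm ⟨qm a b q, (qm_det h q).trans e⟩ else 1

theorem P_of {a b : K} (h : a ^ 2 + b ^ 2 = -1) {q : ℍ[K]} (e : normSq q = 1) :
    P h q = pm ⟨qm a b q, (qm_det h q).trans e⟩ := dif_pos e

theorem P_mul {a b : K} (h : a ^ 2 + b ^ 2 = -1) {q r : ℍ[K]} (e : normSq q = 1) (f : normSq r = 1) :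
    P h q * P h r = P h (q * r) := by
  have g : normSq (q * r) = 1 := by rw [map_mul, e, f, mul_one]
  rw [P_of h e, P_of h f, P_of h g]
  exact (QuotientGroup.mk_mul _ _ _).symm.trans (p_eq.2 (Or.inl (qm_mul h q r).symm))

theorem P_neg {a b : K} (h : a ^ 2 + b ^ 2 = -1) (q : ℍ[K]) : P h (-q) = P h q := by
  by_cases e : normSq q = 1
  · have g : normSq (-q) = 1 := by rw [normSq_neg, e]
    rw [P_of h e, P_of h g]
    exact p_eq.2 (Or.inr (qm_neg a b q))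
  · have g : ¬ normSq (-q) = 1 := by rwa [normSq_neg]
    rw [P, P, dif_neg e, dif_neg g]

theorem P_one {a b : K} (h : a ^ 2 + b ^ 2 = -1) : P h 1 = 1 := by
  rw [P_of h (map_one normSq)]
  exact (p_eq (B := 1)).2 (Or.inl (qm_one a b))

theorem rel_pos {a b : K} (h : a ^ 2 + b ^ 2 = -1) {q r s t : ℍ[K]} (e : normSq q = 1) (f : normSq r = 1)
    (e' : normSq s = 1) (f' : normSq t = 1) (g : q * r = s * t) : P h q * P h r = P h s * P h t := by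
  rw [P_mul h e f, P_mul h e' f', g]

theorem rel_neg {a b : K} (h : a ^ 2 + b ^ 2 = -1) {q r s t : ℍ[K]} (e : normSq q = 1) (f : normSq r = 1)
    (e' : normSq s = 1) (f' : normSq t = 1) (g : q * r = -(s * t)) : P h q * P h r = P h s * P h t := by
  rw [P_mul h e f, P_mul h e' f', g, P_neg]

theorem sq_neg {a b : K} (h : a ^ 2 + b ^ 2 = -1) {q : ℍ[K]} (e : normSq q = 1) (g : q * q = -1) :
    P h q * P h q = 1 := by
  rw [P_mul h e e, g, P_neg, P_one]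

theorem ex (w x y u : K) : ∃ q : ℍ[K], q.re = w ∧ q.imI = x ∧ q.imJ = y ∧ q.imK = u :=
  ⟨⟨w, x, y, u⟩, rfl, rfl, rfl, rfl⟩

theorem main {a b r : K} (h : a ^ 2 + b ^ 2 = -1) (hr : 2 * r ^ 2 = 1) : ∃ z v1 v2 y1 y2 : P2F K,
    v1 * v1 = 1 ∧ v2 * v2 = 1 ∧ z * z = 1 ∧ z ≠ 1 ∧ v1 * v2 * v1 * v2 = z ∧ y1 ^ 3 = 1 ∧ y2 ^ 3 = 1 ∧
    y1 * z * y1⁻¹ = v1 ∧ y2 * z * y2⁻¹ = v2 ∧ y1 * v1 * y1⁻¹ = z * v1 ∧ y2 * v2 * y2⁻¹ = z * v2 ∧
    v2 * y1 * v2 = y1⁻¹ ∧ v1 * y2 * v1 = y2⁻¹ := by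
  obtain ⟨c, hc⟩ : ∃ c : K, c = r ^ 2 := ⟨_, rfl⟩
  have c2 : 2 * c = 1 := hc ▸ hr
  obtain ⟨Z, Za, Zb, Zc, Zd⟩ := ex (K := K) 0 1 0 0
  obtain ⟨V1, V1a, V1b, V1c, V1d⟩ := ex (K := K) 0 0 1 0
  obtain ⟨V2, V2a, V2b, V2c, V2d⟩ := ex (K := K) 0 0 r (-r)
  obtain ⟨Y1, Y1a, Y1b, Y1c, Y1d⟩ := ex (K := K) c c c c
  obtain ⟨Y2, Y2a, Y2b, Y2c, Y2d⟩ := ex (K := K) c (-c) 0 (-r)
  have nZ : normSq Z = 1 := by simp [normSq_def', Za, Zb, Zc, Zd]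
  have n1 : normSq V1 = 1 := by simp [normSq_def', V1a, V1b, V1c, V1d]
  have n2 : normSq V2 = 1 := by simp [normSq_def', V2a, V2b, V2c, V2d]; linear_combination hr
  have m1 : normSq Y1 = 1 := by simp [normSq_def', Y1a, Y1b, Y1c, Y1d]; linear_combination (2 * c + 1) * c2
  have m2 : normSq Y2 = 1 := by simp [normSq_def', Y2a, Y2b, Y2c, Y2d]; linear_combination (c + 1) * c2 - hc
  have nm : ∀ {q s : ℍ[K]}, normSq q = 1 → normSq s = 1 → normSq (q * s) = 1 := fun e f => by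
    rw [map_mul, e, f, mul_one]
  refine ⟨P h Z, P h V1, P h V2, P h Y1, P h Y2, sq_neg h n1 ?_, sq_neg h n2 ?_, sq_neg h nZ ?_, ?_, ?_, ?_, ?_,
    ?_, ?_, ?_, ?_, ?_, ?_⟩
  · ext <;> simp [V1a, V1b, V1c, V1d]
  · ext <;> simp [V2a, V2b, V2c, V2d] <;> grind
  · ext <;> simp [Za, Zb, Zc, Zd]
  · intro e
    rw [P_of h nZ] at e
    rcases (p_eq (B := 1)).1 e with e | e
    · simpa [qm, Za, Zb, Zc, Zd] using congrFun (congrFun e 0) 1
    · simpa [qm, Za, Zb, Zc, Zd] using congrFun (congrFun e 0) 1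
  · rw [mul_assoc (P h V1 * P h V2), P_mul h n1 n2, P_mul h (nm n1 n2) (nm n1 n2)]
    congr 1
    ext <;> simp [V1a, V1b, V1c, V1d, V2a, V2b, V2c, V2d, Za, Zb, Zc, Zd] <;> grind
  · rw [pow_three, P_mul h m1 m1, P_mul h m1 (nm m1 m1), ← P_one h, ← P_neg h 1]
    congr 1
    ext <;> simp [Y1a, Y1b, Y1c, Y1d] <;> grind
  · rw [pow_three, P_mul h m2 m2, P_mul h m2 (nm m2 m2), ← P_one h, ← P_neg h 1]
    congr 1
    ext <;> simp [Y2a, Y2b, Y2c, Y2d] <;> grind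
  · rw [mul_inv_eq_iff_eq_mul]
    refine rel_pos h m1 nZ n1 m1 ?_
    ext <;> simp [Y1a, Y1b, Y1c, Y1d, Za, Zb, Zc, Zd, V1a, V1b, V1c, V1d]
  · rw [mul_inv_eq_iff_eq_mul]
    refine rel_neg h m2 nZ n2 m2 ?_
    ext <;> simp [Y2a, Y2b, Y2c, Y2d, Za, Zb, Zc, Zd, V2a, V2b, V2c, V2d] <;> grind
  · rw [mul_inv_eq_iff_eq_mul, P_mul h nZ n1]
    refine rel_pos h m1 n1 (nm nZ n1) m1 ?_
    ext <;> simp [Y1a, Y1b, Y1c, Y1d, Za, Zb, Zc, Zd, V1a, V1b, V1c, V1d]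
  · rw [mul_inv_eq_iff_eq_mul, P_mul h nZ n2]
    refine rel_neg h m2 n2 (nm nZ n2) m2 ?_
    ext <;> simp [Y2a, Y2b, Y2c, Y2d, Za, Zb, Zc, Zd, V2a, V2b, V2c, V2d] <;> grind
  · rw [eq_inv_iff_mul_eq_one, mul_assoc (P h V2 * P h Y1), P_mul h n2 m1]
    refine sq_neg h (nm n2 m1) ?_
    ext <;> simp [Y1a, Y1b, Y1c, Y1d, V2a, V2b, V2c, V2d] <;> grind
  · rw [eq_inv_iff_mul_eq_one, mul_assoc (P h V1 * P h Y2), P_mul h n1 m2]
    refine sq_neg h (nm n1 m2) ?_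
    ext <;> simp [Y2a, Y2b, Y2c, Y2d, V1a, V1b, V1c, V1d] <;> grind

end P2H

theorem p_rel (hq : Fintype.card F % 16 = 7 ∨ Fintype.card F % 16 = 9) : ∃ z v1 v2 y1 y2 : P2F F,
    v1 * v1 = 1 ∧ v2 * v2 = 1 ∧ z * z = 1 ∧ z ≠ 1 ∧ v1 * v2 * v1 * v2 = z ∧ y1 ^ 3 = 1 ∧ y2 ^ 3 = 1 ∧
    y1 * z * y1⁻¹ = v1 ∧ y2 * z * y2⁻¹ = v2 ∧ y1 * v1 * y1⁻¹ = z * v1 ∧ y2 * v2 * y2⁻¹ = z * v2 ∧
    v2 * y1 * v2 = y1⁻¹ ∧ v1 * y2 * v1 = y2⁻¹ := by
  classical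
  have hc : ringChar F ≠ 2 := fun e => by
    have := FiniteField.even_card_of_char_two e
    omega
  have h2 : (2 : F) ≠ 0 := Ring.two_ne_zero hc
  obtain ⟨s, hs⟩ : IsSquare (2 : F) := FiniteField.isSquare_two_iff.2 (by omega)
  obtain ⟨a, b, hab⟩ : ∃ a b : F, a ^ 2 + b ^ 2 = -1 := by
    obtain ⟨a, b, h⟩ := FiniteField.exists_root_sum_quadratic (f := (Polynomial.X ^ 2 + 1 : Polynomial F))
      (g := Polynomial.X ^ 2) (by
        simpa using Polynomial.degree_X_pow_add_C (R := F) (n := 2) (by norm_num) 1) (Polynomial.degree_X_pow 2)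
      (by omega)
    refine ⟨a, b, ?_⟩
    simp at h
    linear_combination h
  have s0 : s ≠ 0 := fun e => h2 (by rw [hs, e, mul_zero])
  refine P2H.main hab (r := s⁻¹) ?_
  rw [hs]
  field_simp

end H60M.MC
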