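import Mathlib
import Cfsg.Agent.Lib.M37.P1
import Cfsg.Agent.Lib.M37.P2
import Cfsg.Agent.Lib.GL.Basic
import Cfsg.Agent.Lib.A7S.Gen

/-! The model `PSL₂(q)`. -/

set_option autoImplicit false

namespace H60M.MC

open Subgroup H69 H36.SW H80.A6C

variable {F : Type} [Field F] [Fintype F]

namespace P3H

theorem card8 {X : Type*} [Group X] [Finite X] {z a b : X} (aa : a * a = 1) (bb : b * b = 1) (zz : z * z = 1)
    (z1 : z ≠ 1) (hz : a * b * a * b = z) : Nat.card (closure ({a, b} : Set X)) = 8 := by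
  have ai : a⁻¹ = a := inv_eq_of_mul_eq_one_right aa
  have bi : b⁻¹ = b := inv_eq_of_mul_eq_one_right bb
  have r2 : (a * b) ^ 2 = z := by rw [pow_two, ← hz]; group
  have o : orderOf (a * b) = 2 ^ 2 := orderOf_eq_prime_pow (p := 2) (n := 1) (by rw [pow_one, r2]; exact z1)
    (by rw [show 2 ^ (1 + 1) = 2 * 2 from rfl, pow_mul, r2, pow_two, zz])
  have iv : a * (a * b) * a⁻¹ = (a * b)⁻¹ := by rw [← mul_assoc, aa, one_mul, mul_inv_rev, bi]
  have n : a ∈ 𝐍(zpowers (a * b)) := by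
    rw [← cj_eq_self_iff, cj_zpowers, iv, zpowers_inv]
  have e : closure ({a, b} : Set X) = zpowers (a * b) ⊔ zpowers a := by
    have ha : a ∈ closure ({a, b} : Set X) := subset_closure (by simp)
    have hb : b ∈ closure ({a, b} : Set X) := subset_closure (by simp)
    refine le_antisymm ((closure_le _).2 ?_) (sup_le (zpowers_le.2 (mul_mem ha hb)) (zpowers_le.2 ha))
    rintro x (rfl | rfl)
    · exact mem_sup_right (mem_zpowers _)
    · have : a⁻¹ * (a * x) ∈ zpowers (a * x) ⊔ zpowers a :=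
        mul_mem (mem_sup_right (inv_mem (mem_zpowers a))) (mem_sup_left (mem_zpowers _))
      rwa [inv_mul_cancel_left] at this
  rw [e, H25.A7.card_adj n (by rw [aa]; exact one_mem _), Nat.card_zpowers, o]
  · rfl
  rintro ⟨k, hk⟩
  have c : Commute a (a * b) := by
    have := (Commute.refl (a * b)).zpow_left k
    rwa [show (a * b) ^ k = a from hk] at this
  rw [c.eq, mul_inv_cancel_right] at iv
  exact z1 (by rw [← r2, pow_two]; nth_rw 1 [iv]; rw [inv_mul_cancel])

theorem m1 (h2 : (2 : F) ≠ 0) {z v u y : P2F F} (vv : v * v = 1) (uu : u * u = 1) (zz : z * z = 1) (z1 : z ≠ 1)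
    (zv : z * v = v * z) (zu : u * z * u = z) (uv : u * v * u = z * v) (yz : y * z * y⁻¹ = v) (yv : y * v * y⁻¹ = z * v)
    (uy : u * y * u = y⁻¹) (φ : MulAut (P2F F)) (fz : φ z = z) (fv : φ v = v) (fu : φ u = u) :
    φ y = y ∨ φ y = z * y * z := by
  have v1 : v ≠ 1 := yz ▸ cjne z1 y
  have n : z ≠ v := fun e => by
    subst e; rw [zu, zz] at uv; exact z1 uv
  have a1 : φ y * z * (φ y)⁻¹ = v := by simpa [fz, fv] using congrArg φ yz
  have a2 : φ y * v * (φ y)⁻¹ = z * v := by simpa [fz, fv] using congrArg φ yv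
  have a3 : u * φ y * u = (φ y)⁻¹ := by simpa [fu] using congrArg φ uy
  have yzv : y * (z * v) * y⁻¹ = z := by
    rw [show y * (z * v) * y⁻¹ = y * z * y⁻¹ * (y * v * y⁻¹) by group, yz, yv, ← mul_assoc, ← zv, mul_assoc, vv, mul_one]
  obtain ⟨w, hw⟩ : ∃ w, φ y = y * w := ⟨y⁻¹ * φ y, by group⟩
  rw [hw] at a1 a2 a3 ⊢
  have b1 : w * z = z * w := by
    have := a1.trans yz.symm
    rw [show y * w * z * (y * w)⁻¹ = y * (w * z * w⁻¹) * y⁻¹ by group, mul_left_inj, mul_right_inj] at this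
    exact mul_inv_eq_iff_eq_mul.1 this
  have b2 : w * v = v * w := by
    have := a2.trans yv.symm
    rw [show y * w * v * (y * w)⁻¹ = y * (w * v * w⁻¹) * y⁻¹ by group, mul_left_inj, mul_right_inj] at this
    exact mul_inv_eq_iff_eq_mul.1 this
  have b3 : u * w * u = y * w⁻¹ * y⁻¹ := by
    have : u * (y * w) * u = u * y * u * (u * w * u) := by
      rw [show u * y * u * (u * w * u) = u * y * (u * u) * w * u by group, uu]; group
    rw [this, uy, mul_inv_rev] at a3
    rw [mul_assoc y, ← a3]; group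
  have zi : z⁻¹ = z := inv_eq_of_mul_eq_one_right zz
  have vi : v⁻¹ = v := inv_eq_of_mul_eq_one_right vv
  rcases p_cen h2 zz vv z1 v1 n zv b1 b2 with rfl | rfl | rfl | rfl
  · exact Or.inl (mul_one _)
  · rw [zu, zi, yz] at b3; exact (n b3).elim
  · refine Or.inr ?_
    rw [show z * y = y * (z * w) by rw [← mul_inv_eq_iff_eq_mul.1 yzv], mul_assoc y, zv, mul_assoc w, zz, mul_one]
  · rw [mul_inv_rev, zi, vi, ← zv, yzv, show u * (z * v) * u = u * z * u * (u * v * u) by
      rw [show u * z * u * (u * v * u) = u * z * (u * u) * v * u by group, uu]; group, zu, uv, ← mul_assoc, zz,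
      one_mul] at b3
    exact (n b3.symm).elim

end P3H

theorem mdP (hq : Fintype.card F % 16 = 7 ∨ Fintype.card F % 16 = 9) : ∃ z v1 v2 y1 y2 : P2F F, Md z v1 v2 y1 y2 := by
  obtain ⟨z, v1, v2, y1, y2, v11, v22, zz, z1, hz, y13, y23, y1z, y2z, y1v, y2v, v2y, v1y⟩ := p_rel hq
  have h2 : (2 : F) ≠ 0 := fun e => by
    have := (FiniteField.even_card_iff_char_two (F := F)).1 (ringChar.eq_iff.2 (CharTwo.of_one_ne_zero_of_two_eq_zero one_ne_zero e))
    omega
  have i1 : v1⁻¹ = v1 := inv_eq_of_mul_eq_one_right v11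
  have i2 : v2⁻¹ = v2 := inv_eq_of_mul_eq_one_right v22
  have e1 : v1 * v2 * v1 = z * v2 := by rw [← hz, mul_assoc _ v2 v2, v22, mul_one]
  have hz' : v2 * v1 * v2 * v1 = z := by
    rw [← inv_eq_of_mul_eq_one_right zz, ← hz]; simp only [mul_inv_rev, i1, i2, mul_assoc]
  have e2 : v2 * v1 * v2 = z * v1 := by rw [← hz', mul_assoc _ v1 v1, v11, mul_one]
  have c1 : z * v1 = v1 * z := by
    rw [← e2, ← hz]; simp only [← mul_assoc, v11, one_mul]
  have c2 : z * v2 = v2 * z := by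
    rw [← e1, ← hz']; simp only [← mul_assoc, v22, one_mul]
  have c8 := P3H.card8 v11 v22 zz z1 hz
  refine ⟨z, v1, v2, y1, y2, v11, v22, zz, z1, hz, ?_, y13, y23, y1z, y2z, y1v, y2v, v2y, v1y, fun φ f1 f2 => ?_,
    fun φ φ2 f1 f2 a b fa fb ha hb => p_m2 hq v11 v22 zz z1 hz φ φ2 f1 f2 a b fa fb ha hb⟩
  · refine isSylowIn_of_not_dvd_relIndex (IsPGroup.of_card (n := 3) c8) le_top fun ⟨k, hk⟩ => ?_
    have a := (closure ({v1, v2} : Set (P2F F))).card_mul_index
    rw [relIndex_top_right] at hk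
    have b := H10.card_PSL_two (F := F)
    rw [← a, c8, hk, Nat.card_eq_fintype_card] at b
    obtain ⟨j, hj⟩ : ∃ j, Fintype.card F = 16 * j + 7 ∨ Fintype.card F = 16 * j + 9 := ⟨Fintype.card F / 16, by omega⟩
    rcases hj with hj | hj
    · rw [hj, show 16 * j + 7 - 1 = 2 * (8 * j + 3) by omega, Nat.gcd_mul_right_right] at b
      have : 2 * k = 2 * (128 * j ^ 3 + 168 * j ^ 2 + 73 * j + 10) + 1 := by nlinarith
      omega
    · rw [hj, show 16 * j + 9 - 1 = 2 * (8 * j + 4) by omega, Nat.gcd_mul_right_right] at b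
      have : 2 * k = 2 * (128 * j ^ 3 + 216 * j ^ 2 + 121 * j + 22) + 1 := by nlinarith
      omega
  · have fz : φ z = z := by rw [← hz]; simp [f1, f2]
    exact ⟨P3H.m1 h2 v11 v22 zz z1 c1 (by rw [← c2, mul_assoc, v22, mul_one]) e2 y1z y1v v2y φ fz f1 f2,
      P3H.m1 h2 v22 v11 zz z1 c2 (by rw [← c1, mul_assoc, v11, mul_one]) e1 y2z y2v v1y φ fz f2 f1⟩

end H60M.MC
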