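import Mathlib
import Cfsg.Agent.Lib.M37.P0

/-! `PSL₂(q)`: field automorphisms. -/

set_option autoImplicit false

namespace H60M.MC

open Subgroup H69 H36.SW H80.A6C

variable {F : Type} [Field F] [Fintype F]

namespace P4H

theorem pow_form (g : GL (Fin 2) F) (σ : F ≃+* F) (n : ℕ) : ∃ g' : GL (Fin 2) F,
    (H67.pslInn (Fin 2) F g * H67.pslField (Fin 2) F σ) ^ n =
      H67.pslInn (Fin 2) F g' * H67.pslField (Fin 2) F (σ ^ n) := by
  induction n with
  | zero => exact ⟨1, by rw [pow_zero, pow_zero, map_one, map_one, mul_one]⟩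
  | succ n ih =>
    obtain ⟨g', e⟩ := ih
    refine ⟨g' * H67.glField (Fin 2) (σ ^ n) g, ?_⟩
    rw [pow_succ, e, map_mul, ← H67.pslField_conj, pow_succ,
      map_mul (H67.pslField (Fin 2) F) (σ ^ n) σ]
    group

theorem pow_one {g : GL (Fin 2) F} {σ : F ≃+* F} {n : ℕ}
    (h : (H67.pslInn (Fin 2) F g * H67.pslField (Fin 2) F σ) ^ n = 1) : σ ^ n = 1 := by
  obtain ⟨g', e⟩ := pow_form g σ n
  exact (H67.pslInn_mul_pslField_eq_one (by simp) (e.symm.trans h)).2

theorem isSquare {σ : F ≃+* F} (h2 : σ ^ 2 = 1) (h1 : σ ≠ 1) : IsSquare (Fintype.card F) := by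
  classical
  haveI : Fact (Nat.Prime 2) := ⟨Nat.prime_two⟩
  have o : orderOf σ = 2 := orderOf_eq_prime h2 h1
  haveI : Finite (zpowers σ) := Nat.finite_of_card_ne_zero (by rw [Nat.card_zpowers, o]; norm_num)
  haveI := Fintype.ofFinite (zpowers σ)
  have r := FixedPoints.finrank_eq_card (zpowers σ) F
  rw [← Nat.card_eq_fintype_card, Nat.card_zpowers, o] at r
  haveI := Fintype.ofFinite (FixedPoints.subfield (zpowers σ) F)
  have c := Module.card_eq_pow_finrank (K := FixedPoints.subfield (zpowers σ) F) (V := F)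
  rw [r] at c
  exact ⟨_, c.trans (sq _)⟩

theorem sign {g : GL (Fin 2) F} {A : Matrix.SpecialLinearGroup (Fin 2) F}
    (h : H67.pslInn (Fin 2) F g (pm A) = pm A) :
    (g : Matrix (Fin 2) (Fin 2) F) * A.1 = A.1 * g ∨ (g : Matrix (Fin 2) (Fin 2) F) * A.1 = -(A.1 * g) := by
  have := (p_act g 1 (A := A) (B := A)).1 (by rwa [map_one, mul_one])
  have e : A.1.map (1 : F ≃+* F) = A.1 := by ext i j; rfl
  rwa [e] at this

end P4H

theorem p_sq (hq : Fintype.card F % 16 = 7 ∨ Fintype.card F % 16 = 9) {z v1 v2 y1 y2 : P2F F} (m : Md z v1 v2 y1 y2)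
    (φ : MulAut (P2F F)) (φ2 : φ * φ = 1) (f1 : φ v1 = v1) (f2 : φ v2 = v2) (f3 : φ y1 = y1) :
    φ = 1 ∨ IsSquare (Fintype.card F) := by
  obtain ⟨g, σ, e | ⟨h3, -⟩⟩ := H67.psl_aut (by simp) φ
  swap
  · simp at h3
  by_cases h1 : σ = 1
  swap
  · exact Or.inr (P4H.isSquare (P4H.pow_one (g := g) (by rw [← e, sq, φ2])) h1)
  left
  subst h1
  rw [map_one, mul_one] at e
  subst e
  have h2 : (2 : F) ≠ 0 := fun k => by
    have c := FiniteField.cast_card_eq_zero F
    obtain ⟨n, hn⟩ : ∃ n, Fintype.card F = 2 * n + 1 := ⟨Fintype.card F / 2, by omega⟩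
    rw [hn] at c
    push_cast at c
    rw [k, zero_mul, zero_add] at c
    exact one_ne_zero c
  obtain ⟨V1, rfl⟩ := QuotientGroup.mk_surjective v1
  obtain ⟨V2, rfl⟩ := QuotientGroup.mk_surjective v2
  obtain ⟨Y, rfl⟩ := QuotientGroup.mk_surjective y1
  obtain ⟨G, hG⟩ : ∃ G : Matrix (Fin 2) (Fin 2) F, G = g := ⟨_, rfl⟩
  have s1 := P4H.sign f1
  have s2 := P4H.sign f2
  have s3 := P4H.sign f3
  rw [← hG] at s1 s2 s3
  set Z := V1 * V2 * V1 * V2 with hZ
  have ez : pm Z = z := m.hz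
  have cZ : G * Z.1 = Z.1 * G := by
    have e0 : Z.1 = V1.1 * V2.1 * (V1.1 * V2.1) := by rw [← mul_assoc]; rfl
    have s4 : G * (V1.1 * V2.1) = V1.1 * V2.1 * G ∨ G * (V1.1 * V2.1) = -(V1.1 * V2.1 * G) := by
      rw [← mul_assoc]
      rcases s1 with s1 | s1 <;> rcases s2 with s2 | s2 <;> rw [s1]
      · left; rw [mul_assoc, s2, mul_assoc]
      · right; rw [mul_assoc, s2, mul_neg, mul_assoc]
      · right; rw [neg_mul, mul_assoc, s2, mul_assoc]
      · left; rw [neg_mul, mul_assoc, s2, mul_neg, neg_neg, mul_assoc]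
    rw [e0, ← mul_assoc]
    rcases s4 with s4 | s4
    · rw [s4, mul_assoc, s4, ← mul_assoc]
    · rw [s4, neg_mul, mul_assoc, s4, mul_neg, neg_neg, ← mul_assoc]
  have e1 : pm (Y * Z) = pm (V1 * Y) := by
    have := m.y1z
    rw [← ez, mul_inv_eq_iff_eq_mul] at this
    exact this
  have Yu : IsUnit Y.1 := (Matrix.isUnit_iff_isUnit_det _).2 (by rw [Y.2]; exact isUnit_one)
  have c1 : G * V1.1 = V1.1 * G := by
    have e2 : V1.1 * Y.1 = Y.1 * Z.1 ∨ V1.1 * Y.1 = -(Y.1 * Z.1) := by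
      rcases p_eq.1 e1.symm with h | h
      exacts [Or.inl h, Or.inr h]
    refine Yu.mul_right_cancel ?_
    rcases s3 with s3 | s3
    · have a1 : G * (Y.1 * Z.1) = Y.1 * Z.1 * G := by rw [← mul_assoc, s3, mul_assoc, cZ, mul_assoc]
      rw [mul_assoc, mul_assoc, s3, ← mul_assoc V1.1]
      rcases e2 with e2 | e2
      · rw [e2, a1]
      · rw [e2, mul_neg, neg_mul, a1]
    · have a1 : G * (Y.1 * Z.1) = -(Y.1 * Z.1 * G) := by
        rw [← mul_assoc, s3, neg_mul, mul_assoc, cZ, mul_assoc]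
      rw [mul_assoc, mul_assoc, s3, mul_neg, ← mul_assoc V1.1]
      rcases e2 with e2 | e2
      · rw [e2, a1]
      · rw [e2, mul_neg, neg_mul, a1]
  have zz : pm Z * pm Z = 1 := ez ▸ m.zz
  have z1 : pm Z ≠ 1 := ez ▸ m.z1
  have v1 : pm V1 ≠ 1 := fun k => m.z1 (by
    have := m.y1z
    rw [show (V1 : P2F F) = 1 from k] at this
    simpa using this)
  have zv : pm Z ≠ pm V1 := fun k => m.z1 (by
    have a := m.y1v
    have b := m.y1z
    rw [← ez, k] at a b
    rw [b] at a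
    rw [← ez, k]
    exact (mul_eq_left.1 a.symm))
  have cm : pm Z * pm V1 = pm V1 * pm Z := by
    have a : (z * pm V1) * (z * pm V1) = 1 := by
      rw [← m.y1v, conj_mul, m.v11, mul_one, mul_inv_cancel]
    have := eq_inv_of_mul_eq_one_left a
    rw [mul_inv_rev, inv_eq_of_mul_eq_one_left m.zz, inv_eq_of_mul_eq_one_left m.v11] at this
    rw [ez]; exact this
  obtain ⟨s, hs⟩ := p_scalar h2 (p_inv zz z1).2 (p_inv m.v11 v1).2 (p_anti zz m.v11 z1 v1 zv cm) cZ c1
  refine (H67.pslInn_eq_one_iff (by simp)).2 (mem_center_iff.2 fun x => Units.ext ?_)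
  rw [Units.val_mul, Units.val_mul, ← hG, hs, Matrix.mul_smul, Matrix.smul_mul, mul_one, one_mul]

theorem p_no7 (h9 : Fintype.card F = 9) (φ : MulAut (P2F F)) (h : φ ^ 7 = 1) : φ = 1 := by
  obtain ⟨g, σ, e | ⟨h3, -⟩⟩ := H67.psl_aut (by simp) φ
  swap
  · simp at h3
  have s7 : σ ^ 7 = 1 := P4H.pow_one (g := g) (e ▸ h)
  have s1 : σ = 1 := by
    classical
    haveI : Fact (Nat.Prime 7) := ⟨by norm_num⟩
    by_contra n
    have o : orderOf σ = 7 := orderOf_eq_prime s7 n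
    haveI : Finite (zpowers σ) := Nat.finite_of_card_ne_zero (by rw [Nat.card_zpowers, o]; norm_num)
    haveI := Fintype.ofFinite (zpowers σ)
    have r := FixedPoints.finrank_eq_card (zpowers σ) F
    rw [← Nat.card_eq_fintype_card, Nat.card_zpowers, o] at r
    haveI := Fintype.ofFinite (FixedPoints.subfield (zpowers σ) F)
    have c := Module.card_eq_pow_finrank (K := FixedPoints.subfield (zpowers σ) F) (V := F)
    rw [r, h9] at c
    have c2 : 2 ≤ Fintype.card (FixedPoints.subfield (zpowers σ) F) := Fintype.one_lt_card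
    have := Nat.pow_le_pow_left c2 7
    omega
  subst s1
  rw [map_one, mul_one] at e
  subst e
  have c := Matrix.card_GL_field (𝔽 := F) 2
  rw [h9] at c
  have d1 : orderOf (H67.pslInn (Fin 2) F g) ∣ 7 := orderOf_dvd_of_pow_eq_one h
  have d2 := (orderOf_map_dvd (H67.pslInn (Fin 2) F) g).trans (orderOf_dvd_natCard g)
  rw [c] at d2
  simp only [Fin.prod_univ_two] at d2
  exact orderOf_eq_one_iff.1 (Nat.eq_one_of_dvd_coprimes (by norm_num) d1 d2)

end H60M.MC
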